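import Groth.Agent.Pi1.H408.TameGal
import Groth.Agent.Sga1.AbhExt2
import Groth.Agent.Sga1.AbhKumDvr

/-!
# Abhyankar's lemma for Galois extensions of degree prime to the residue characteristic

The ramification indices of a finite Galois extension divide its degree; hence an étale algebra over the fraction
field of a DVR whose residue fields are Galois of degree dividing `N` (`N` invertible in the residue field) extends to
a finite étale algebra over `R[T]/(T^N - ϖ)`.
-/

set_option autoImplicit false
open scoped Pointwise TensorProduct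
universe u
open IsLocalRing EtRam Groth.Agent.Sga1.AbhKum

namespace Groth.Agent.Pi1.H390.AbhDvd

open Groth.Agent.Etalg.RamCrit Groth.Agent.Etalg.RamDict

attribute [local instance] Ideal.Quotient.field

/-- The ramification indices of a finite Galois extension `M` of the fraction field of a DVR divide the degree; if the
degree is prime to the residue characteristic exponent, the residue field extensions are separable. -/
theorem tameDvd {A K M : Type u} [CommRing A] [IsDomain A]
    [IsDiscreteValuationRing A] [Field K] [Algebra A K] [IsFractionRing A K] [Field M] [Algebra K M]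
    [Algebra A M] [IsScalarTower A K M] [FiniteDimensional K M] [IsGalois K M]
    (q : ℕ) [ExpChar (A ⧸ maximalIdeal A) q] (h : Nat.Coprime q (Module.finrank K M))
    (n : ℕ) (hn : Module.finrank K M ∣ n) :
    TameDvd A (algebraMap A M) n := by
  have htame := Groth.Agent.Pi1.H408.TameGal.isTamelyRamified_of_coprime (A := A) (K := K) (M := M) q h
  let B := integralClosure A M
  have hfracB : IsFractionRing B M := IsIntegralClosure.isFractionRing_of_finite_extension A K M B
  have hdedB : IsDedekindDomain B := IsIntegralClosure.isDedekindDomain A K M B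
  have hfinB : Module.Finite A B := IsIntegralClosure.finite A K M B
  have hinjA : Function.Injective (algebraMap A M) := injective_algebraMap (K := K)
  have hinjAB : Function.Injective (algebraMap A B) := by
    rw [IsScalarTower.algebraMap_eq A B M, RingHom.coe_comp] at hinjA
    exact Function.Injective.of_comp hinjA
  have hTF : Module.IsTorsionFree A B := Module.isTorsionFree_iff_algebraMap_injective.mpr hinjAB
  have hflat : Module.Flat A B := inferInstance
  have hmap : algebraMap A M = (algebraMap K M).comp (algebraMap A K) :=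
    IsScalarTower.algebraMap_eq A K M
  intro V hV hlocal
  refine ⟨(htame V hV).1, ?_⟩
  have hdvr : IsDiscreteValuationRing V := by
    refine Groth.Agent.Etalg.RamDVR.isDVR_of_dominates (A := A) (K := K) (F := M) ?_
    rwa [hmap] at hV
  let _ : Algebra A V := ((algebraMap A M).codRestrict V hV.1).toAlgebra
  have h2 := ramificationIdx_center B hinjA hV
  have hmax : (center B hV.1).IsMaximal := center_isMaximal hV
  have hover : (center B hV.1).LiesOver (maximalIdeal A) := center_liesOver hV
  have hG1 : IsGaloisGroup Gal(M/K) A B := IsGaloisGroup.of_isFractionRing Gal(M/K) A B K M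
  have h1 := Ideal.ncard_primesOver_mul_ramificationIdxIn_mul_inertiaDegIn (maximalIdeal A) B Gal(M/K)
  rw [IsGalois.card_aut_eq_finrank] at h1
  have h3 : Ideal.ramificationIdx' (maximalIdeal A) (maximalIdeal V) ∣ Module.finrank K M := by
    refine (dvd_of_eq h2).trans ?_
    rw [← h1, Ideal.ramificationIdxIn_eq_ramificationIdx (maximalIdeal A) (center B hV.1) Gal(M/K)]
    exact dvd_mul_of_dvd_right (dvd_mul_right _ _) _
  exact h3.trans hn

section Ext

variable (R : Type u) [CommRing R] [IsDomain R] [IsDiscreteValuationRing R]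
  (K : Type u) [Field K] [Algebra R K] [IsFractionRing R K]
  (M : Type u) [CommRing M] [Algebra K M] [Algebra.Etale K M]
  {ϖ : R} (hϖ : Irreducible ϖ) {N : ℕ} (hN0 : N ≠ 0) (hN : IsUnit ((N : ℕ) : ResidueField R))
  (hgal : ∀ (L : Type u) [Field L] [Algebra K L] (ψ : M →ₐ[K] L), Function.Surjective ψ →
    IsGalois K L ∧ FiniteDimensional K L ∧ Module.finrank K L ∣ N)

include hϖ hN0 hN hgal in
/-- An étale algebra `M` over the fraction field of a DVR `R` all of whose residue fields are Galois of degree dividing
`N` (invertible in the residue field) extends to a finite étale algebra over the Kummer algebra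
`R₂ = R[T]/(T^N - ϖ)`. -/
theorem exists_ext : ∃ (_ : IsDomain (Groth.Agent.Sga1.AbhKumDvr.Kum R ϖ N)),
    ∀ (K₂ : Type u) [Field K₂] [Algebra (Groth.Agent.Sga1.AbhKumDvr.Kum R ϖ N) K₂]
      [IsFractionRing (Groth.Agent.Sga1.AbhKumDvr.Kum R ϖ N) K₂] [Algebra K K₂] [Algebra R K₂]
      [IsScalarTower R (Groth.Agent.Sga1.AbhKumDvr.Kum R ϖ N) K₂] [IsScalarTower R K K₂],
    ∃ (C : Type u) (_ : CommRing C) (_ : Algebra (Groth.Agent.Sga1.AbhKumDvr.Kum R ϖ N) C),
      Module.Finite (Groth.Agent.Sga1.AbhKumDvr.Kum R ϖ N) C ∧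
      Algebra.Etale (Groth.Agent.Sga1.AbhKumDvr.Kum R ϖ N) C ∧
      Nonempty (K₂ ⊗[Groth.Agent.Sga1.AbhKumDvr.Kum R ϖ N] C ≃ₐ[K₂] K₂ ⊗[K] M) := by
  have h1 : 1 ≤ N := Nat.one_le_iff_ne_zero.mpr hN0
  have hdom := Groth.Agent.Sga1.AbhKumDvr.isDomain R hϖ N h1
  refine ⟨hdom, ?_⟩
  obtain ⟨hdvr, hmax⟩ := Groth.Agent.Sga1.AbhKumDvr.isDiscreteValuationRing R hϖ N h1
  intro K₂ _ _ _ _ _ _ _
  let algM : Algebra R M := ((algebraMap K M).comp (algebraMap R K)).toAlgebra
  have htM : IsScalarTower R K M := IsScalarTower.of_algebraMap_eq' rfl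
  have hNm : (N : R) ∉ maximalIdeal R := by
    intro hcon
    have h2 : residue R (N : R) = 0 := (residue_eq_zero_iff _).mpr hcon
    rw [map_natCast] at h2
    rw [h2] at hN
    exact not_isUnit_zero hN
  obtain ⟨C, _, _, hC1, hC2, hC3⟩ := Groth.Agent.Sga1.AbhExt2.exists_extension_kummer R K M hϖ hNm
    (fun L _ ψ hψ => by
      let algL : Algebra K L := (ψ.comp (algebraMap K M)).toAlgebra
      let ψ' : M →ₐ[K] L := { ψ with commutes' := fun _ => rfl }
      obtain ⟨h2, h3, h4⟩ := hgal L ψ' hψ
      let algRL : Algebra R L := (ψ.comp (algebraMap R M)).toAlgebra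
      have htow : IsScalarTower R K L := IsScalarTower.of_algebraMap_eq' rfl
      obtain ⟨p, hp⟩ := ExpChar.exists (R ⧸ maximalIdeal R)
      have hcop : Nat.Coprime p (Module.finrank K L) := by
        refine Nat.Coprime.coprime_dvd_right h4 ?_
        rcases hp with _ | ⟨hpp⟩
        · exact Nat.coprime_one_left _
        · rw [Nat.Prime.coprime_iff_not_dvd hpp]
          intro hd
          have h5 : ((N : ℕ) : R ⧸ maximalIdeal R) = 0 := (CharP.cast_eq_zero_iff _ p _).mpr hd
          have h6 : IsUnit ((N : ℕ) : R ⧸ maximalIdeal R) := hN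
          rw [h5] at h6
          exact not_isUnit_zero h6
      exact tameDvd (A := R) (K := K) (M := L) p hcop N h4)
    (Groth.Agent.Sga1.AbhKumDvr.Kum R ϖ N) hmax (Groth.Agent.Sga1.AbhKumDvr.root_pow R N)
    (Groth.Agent.Sga1.AbhKumDvr.adjoin_root R N) K₂
  exact ⟨C, _, _, hC1, hC2, hC3⟩

end Ext

end Groth.Agent.Pi1.H390.AbhDvd
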