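import Groth.Agent.Pi1.H390.AbhDvd
import Groth.Agent.Pi1.H408.PrincRestrict
import Groth.Agent.Pi1.H408.FieldQuot
import Groth.Agent.Pi1.H421.PrincAlg
import Groth.Agent.Pi1A.FEtAffine

/-!
# Extension of a principal cover over a root of the equation at a point of codimension one

`P` a principal `G`-cover of an open `U ⊆ X`, `x` a point whose local ring is a DVR with uniformizer `t` and whose
trace on `U` is the generic point; `N` a multiple of the order of `G`, invertible in `κ(x)`.  Over every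
`g : Y ⟶ Spec 𝒪_{X,x}` on which `t` has an `N`-th root, `P` extends to a finite étale cover.
-/

set_option autoImplicit false
open scoped TensorProduct
universe u v
open IsLocalRing CategoryTheory CategoryTheory.Limits AlgebraicGeometry

namespace Groth.Agent.Pi1.H390.AbhPt

open Groth.Agent.Pi1A.FEtAffine Groth.Agent.Sga1.AbhKumDvr

/-- Ring map to global sections attached to a morphism to an affine scheme. -/
noncomputable def toΓ {Y : Scheme.{u}} {R : Type u} [CommRing R] (g : Y ⟶ Spec (CommRingCat.of R)) :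
    R →+* Γ(Y, ⊤) := g.appTop.hom.comp (Scheme.ΓSpecIso (CommRingCat.of R)).inv.hom

theorem toΓ_comp {Y Z : Scheme.{u}} {R : Type u} [CommRing R] (f : Y ⟶ Z)
    (g : Z ⟶ Spec (CommRingCat.of R)) : toΓ (f ≫ g) = f.appTop.hom.comp (toΓ g) := by
  unfold toΓ
  rw [Scheme.Hom.comp_appTop, CommRingCat.hom_comp, RingHom.comp_assoc]

theorem toΓ_comp_Spec {Y : Scheme.{u}} {R S : Type u} [CommRing R] [CommRing S] (φ : R →+* S)
    (g : Y ⟶ Spec (CommRingCat.of S)) :
    toΓ (g ≫ Spec.map (CommRingCat.ofHom φ)) = (toΓ g).comp φ := by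
  unfold toΓ
  rw [Scheme.Hom.comp_appTop, CommRingCat.hom_comp, RingHom.comp_assoc, RingHom.comp_assoc]
  congr 1
  have h := Scheme.ΓSpecIso_inv_naturality (CommRingCat.ofHom φ)
  exact congrArg CommRingCat.Hom.hom h.symm

theorem eq_toSpecΓ {Y : Scheme.{u}} {R : Type u} [CommRing R] (g : Y ⟶ Spec (CommRingCat.of R)) :
    g = Y.toSpecΓ ≫ Spec.map (CommRingCat.ofHom (toΓ g)) := by
  have h1 : Spec.map (CommRingCat.ofHom (toΓ g)) =
      Spec.map g.appTop ≫ Spec.map (Scheme.ΓSpecIso (CommRingCat.of R)).inv := by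
    rw [← Spec.map_comp]
    rfl
  rw [h1, ← Scheme.toSpecΓ_naturality_assoc, toSpecΓ_SpecMap_ΓSpecIso_inv, Category.comp_id]

theorem hom_ext_toΓ {Y : Scheme.{u}} {R : Type u} [CommRing R] {g h : Y ⟶ Spec (CommRingCat.of R)}
    (e : toΓ g = toΓ h) : g = h := by
  rw [eq_toSpecΓ g, eq_toSpecΓ h, e]

/-- The morphism to an affine scheme attached to a ring map to global sections. -/
noncomputable def ofΓ {Y : Scheme.{u}} {R : Type u} [CommRing R] (φ : R →+* Γ(Y, ⊤)) :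
    Y ⟶ Spec (CommRingCat.of R) := Y.toSpecΓ ≫ Spec.map (CommRingCat.ofHom φ)

theorem toΓ_toSpecΓ (Y : Scheme.{u}) : toΓ (R := Γ(Y, ⊤)) Y.toSpecΓ = RingHom.id _ := by
  have h : (Scheme.ΓSpecIso Γ(Y, ⊤)).inv ≫ Y.toSpecΓ.appTop = 𝟙 _ := by
    rw [Scheme.toSpecΓ_appTop, Iso.inv_hom_id]
  exact congrArg CommRingCat.Hom.hom h

theorem toΓ_ofΓ {Y : Scheme.{u}} {R : Type u} [CommRing R] (φ : R →+* Γ(Y, ⊤)) :
    toΓ (ofΓ φ) = φ := by
  unfold ofΓ
  have h := toΓ_comp_Spec (R := R) (S := Γ(Y, ⊤)) φ Y.toSpecΓ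
  refine h.trans ?_
  rw [toΓ_toSpecΓ, RingHom.id_comp]

variable {R : Type u} [CommRing R] [IsDomain R] [IsDiscreteValuationRing R] {t : R} (ht : Irreducible t)
  {N : ℕ} (hN0 : N ≠ 0) (hNu : IsUnit ((N : ℕ) : ResidueField R))
  {X : Scheme.{u}} (U : X.Opens) (j : Spec (CommRingCat.of R) ⟶ X)
  (hU : j ⁻¹ᵁ U = PrimeSpectrum.basicOpen t)
  {G : Type v} [Group G] [Finite G] (P : FEt.Cat (U : Scheme.{u})) (ρ : G →* Aut P)
  (hP : SGA1t.IsPrincipal G P ρ) (hN : Nat.card G ∣ N)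

include ht hN0 hNu hU hP hN in
/-- **Abhyankar's lemma for principal covers at a point of codimension one** (general form). -/
theorem main {Y : Scheme.{u}} (g : Y ⟶ Spec (CommRingCat.of R)) (z : Γ(Y, ⊤))
    (hz : z ^ N = toΓ g t) :
    ∃ Y₁ : FEt.Cat Y, Nonempty ((FEt.restrict (pullback.snd U.ι (g ≫ j))).obj Y₁ ≅
      (FEt.restrict (pullback.fst U.ι (g ≫ j))).obj P) := by
  have hN1 : 1 ≤ N := Nat.one_le_iff_ne_zero.mpr hN0
  let K := FractionRing R
  have hinjRK : Function.Injective (algebraMap R K) := IsFractionRing.injective R K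
  -- the generic point
  have hrange : Set.range (specMap R K ≫ j) ⊆ Set.range U.ι := by
    rw [Scheme.Opens.range_ι]
    rintro _ ⟨p, rfl⟩
    have h1 : (specMap R K) p ∈ j ⁻¹ᵁ U := by
      rw [hU]
      change algebraMap R K t ∉ p.asIdeal
      intro hcon
      have h2 : IsUnit (algebraMap R K t) := by
        rw [isUnit_iff_ne_zero]
        exact (map_ne_zero_iff _ hinjRK).mpr ht.ne_zero
      exact p.isPrime.ne_top (Ideal.eq_top_of_isUnit_mem _ hcon h2)
    rw [Scheme.Hom.comp_apply]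
    exact h1
  let κ : Spec (CommRingCat.of K) ⟶ (U : Scheme.{u}) := IsOpenImmersion.lift U.ι (specMap R K ≫ j) hrange
  have hκ : κ ≫ U.ι = specMap R K ≫ j := IsOpenImmersion.lift_fac _ _ _
  -- the restriction to the generic point
  obtain ⟨B, _, _, hBfin, hBet, _, hcomm, e, he, _, hff, hfree, htrans⟩ :=
    Groth.Agent.Pi1.H421.PrincAlg.exists_algebra K G ((FEt.restrict κ).obj P)
      (((FEt.restrict κ).mapAut P).comp ρ)
      (Groth.Agent.Pi1.H408.PrincRestrict.isPrincipal_restrict κ P ρ hP)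
  have hinv : Algebra.IsInvariant K B G := Groth.Agent.Pi1.H421.GalAlg.isInvariant K hfree htrans
  have iB : (FEt.restrict κ).obj P ≅ ofAlgebra K B := isoMk e he
  -- Abhyankar
  obtain ⟨hdom, hext⟩ := Groth.Agent.Pi1.H390.AbhDvd.exists_ext R K B ht hN0 hNu
    (fun L _ _ ψ hψ => by
      obtain ⟨h1, h2, h3⟩ := Groth.Agent.Pi1.H408.FieldQuot.isGalois_and_finrank_dvd G ψ hψ
      exact ⟨h1, h2, h3.trans hN⟩)
  obtain ⟨hdvr, hmax⟩ := Groth.Agent.Sga1.AbhKumDvr.isDiscreteValuationRing R ht N hN1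
  let R₂ := Kum R t N
  let K₂ := FractionRing R₂
  have hinj₂ : Function.Injective (algebraMap R R₂) :=
    Groth.Agent.Sga1.AbhKumDvr.injective_algebraMap R N hN1
  have hinj₃ : Function.Injective (algebraMap R K₂) := by
    rw [IsScalarTower.algebraMap_eq R R₂ K₂]
    exact (IsFractionRing.injective R₂ K₂).comp hinj₂
  have hfs : FaithfulSMul R K₂ := (faithfulSMul_iff_algebraMap_injective _ _).mpr hinj₃
  let algKK : Algebra K K₂ := FractionRing.liftAlgebra R K₂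
  have htow : IsScalarTower R K K₂ := inferInstance
  obtain ⟨C, _, _, hC1, hC2, ⟨θ⟩⟩ := hext K₂
  -- the morphism `Y → Spec R₂`
  let algY : Algebra R Γ(Y, ⊤) := (toΓ g).toAlgebra
  let φ : R₂ →ₐ[R] Γ(Y, ⊤) :=
    Groth.Agent.Sga1.Kummer.lift (fun _ : Fin 1 => t) (fun _ => N) (fun _ => z) (fun _ => hz)
  let h : Y ⟶ Spec (CommRingCat.of R₂) := ofΓ φ.toRingHom
  have hg : h ≫ specMap R R₂ = g := by
    apply hom_ext_toΓ
    refine (toΓ_comp_Spec (algebraMap R R₂) h).trans ?_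
    rw [toΓ_ofΓ]
    exact φ.comp_algebraMap
  -- the open part
  let YU := pullback U.ι (g ≫ j)
  let p₁ : YU ⟶ (U : Scheme.{u}) := pullback.fst U.ι (g ≫ j)
  let p₂ : YU ⟶ Y := pullback.snd U.ι (g ≫ j)
  have hcond : p₁ ≫ U.ι = p₂ ≫ g ≫ j := pullback.condition
  have hrange₂ : Set.range (p₂ ≫ g) ⊆ Set.range (specMap R (Localization.Away t)) := by
    have h2 : Set.range (specMap R (Localization.Away t)) =
        ((PrimeSpectrum.basicOpen t : TopologicalSpace.Opens (PrimeSpectrum R)) : Set (PrimeSpectrum R)) :=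
      PrimeSpectrum.localization_away_comap_range _ _
    rw [h2]
    rintro _ ⟨y, rfl⟩
    have h3 : (p₂ ≫ g) y ∈ j ⁻¹ᵁ U := by
      change j ((p₂ ≫ g) y) ∈ U
      rw [← Scheme.Hom.comp_apply, Category.assoc, ← hcond, Scheme.Hom.comp_apply]
      exact (p₁ y).2
    rw [hU] at h3
    exact h3
  let q : YU ⟶ Spec (CommRingCat.of (Localization.Away t)) :=
    IsOpenImmersion.lift (specMap R (Localization.Away t)) (p₂ ≫ g) hrange₂
  have hq : q ≫ specMap R (Localization.Away t) = p₂ ≫ g := IsOpenImmersion.lift_fac _ _ _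
  have hut : IsUnit (toΓ (p₂ ≫ g) t) := by
    rw [← hq]
    have h4 := toΓ_comp_Spec (algebraMap R (Localization.Away t)) q
    have h5 : IsUnit ((toΓ q).comp (algebraMap R (Localization.Away t)) t) := by
      rw [RingHom.comp_apply]
      exact (IsLocalization.Away.algebraMap_isUnit (S := Localization.Away t) t).map _
    exact (congrArg (fun a : R →+* Γ(YU, ⊤) => IsUnit (a t)) h4).mpr h5
  have huz : IsUnit (toΓ (p₂ ≫ h) (root R t N)) := by
    have h6 : toΓ (p₂ ≫ h) (root R t N) ^ N = toΓ (p₂ ≫ g) t := by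
      rw [← map_pow, root_pow]
      have h7 : toΓ (p₂ ≫ g) = (toΓ (p₂ ≫ h)).comp (algebraMap R R₂) := by
        rw [← toΓ_comp_Spec (algebraMap R R₂) (p₂ ≫ h), Category.assoc]
        exact congrArg (fun a => toΓ (p₂ ≫ a)) hg.symm
      rw [h7]
      rfl
    exact (isUnit_pow_iff hN0).mp (h6 ▸ hut)
  have hunits : ∀ y : nonZeroDivisors R₂, IsUnit (toΓ (p₂ ≫ h) y) := by
    rintro ⟨y, hy⟩
    have hy0 : y ≠ 0 := nonZeroDivisors.ne_zero hy
    have hirr : Irreducible (root R t N) :=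
      (IsDiscreteValuationRing.irreducible_iff_uniformizer _).mpr hmax
    obtain ⟨n, u, hu⟩ := IsDiscreteValuationRing.eq_unit_mul_pow_irreducible hy0 hirr
    change IsUnit (toΓ (p₂ ≫ h) y)
    rw [hu, map_mul, map_pow]
    exact (u.isUnit.map _).mul (huz.pow n)
  let ℓ : YU ⟶ Spec (CommRingCat.of K₂) := ofΓ (IsLocalization.lift (M := nonZeroDivisors R₂) (S := K₂) hunits)
  have hℓ : ℓ ≫ specMap R₂ K₂ = p₂ ≫ h := by
    apply hom_ext_toΓ
    refine (toΓ_comp_Spec (algebraMap R₂ K₂) ℓ).trans ?_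
    rw [toΓ_ofΓ]
    exact IsLocalization.lift_comp hunits
  have hℓ₂ : ℓ ≫ specMap K K₂ ≫ κ = p₁ := by
    rw [← cancel_mono U.ι, Category.assoc, Category.assoc, hκ, hcond]
    have h8 : specMap K K₂ ≫ specMap R K = specMap R₂ K₂ ≫ specMap R R₂ := by
      change Spec.map _ ≫ Spec.map _ = Spec.map _ ≫ Spec.map _
      rw [← Spec.map_comp, ← Spec.map_comp, ← CommRingCat.ofHom_comp, ← CommRingCat.ofHom_comp,
        ← IsScalarTower.algebraMap_eq, ← IsScalarTower.algebraMap_eq]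
    rw [reassoc_of% h8, reassoc_of% hℓ, reassoc_of% hg]
  -- assembly
  refine ⟨(FEt.restrict h).obj (ofAlgebra R₂ C), ⟨?_⟩⟩
  have i1 : (FEt.restrict p₂).obj ((FEt.restrict h).obj (ofAlgebra R₂ C)) ≅
      (FEt.restrict (p₂ ≫ h)).obj (ofAlgebra R₂ C) := ((restrictComp p₂ h).app _).symm
  have i2 : (FEt.restrict (p₂ ≫ h)).obj (ofAlgebra R₂ C) ≅
      (FEt.restrict (ℓ ≫ specMap R₂ K₂)).obj (ofAlgebra R₂ C) := (restrictCongr hℓ.symm).app _
  have i3 : (FEt.restrict (ℓ ≫ specMap R₂ K₂)).obj (ofAlgebra R₂ C) ≅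
      (FEt.restrict ℓ).obj ((FEt.restrict (specMap R₂ K₂)).obj (ofAlgebra R₂ C)) :=
    (restrictComp ℓ (specMap R₂ K₂)).app _
  have i4 : (FEt.restrict (specMap R₂ K₂)).obj (ofAlgebra R₂ C) ≅ ofAlgebra K₂ (K₂ ⊗[R₂] C) :=
    restrictOfAlgebraIso R₂ K₂ C
  have i5 : ofAlgebra K₂ (K₂ ⊗[R₂] C) ≅ ofAlgebra K₂ (K₂ ⊗[K] B) := isoOfAlgEquiv θ.symm
  have i6 : (FEt.restrict (specMap K K₂)).obj (ofAlgebra K B) ≅ ofAlgebra K₂ (K₂ ⊗[K] B) :=
    restrictOfAlgebraIso K K₂ B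
  have i7 : (FEt.restrict (specMap K K₂)).obj ((FEt.restrict κ).obj P) ≅
      (FEt.restrict (specMap K K₂)).obj (ofAlgebra K B) := (FEt.restrict (specMap K K₂)).mapIso iB
  have i8 : (FEt.restrict ℓ).obj ((FEt.restrict (specMap K K₂)).obj ((FEt.restrict κ).obj P)) ≅
      (FEt.restrict (ℓ ≫ specMap K K₂ ≫ κ)).obj P :=
    (FEt.restrict ℓ).mapIso ((restrictComp (specMap K K₂) κ).app P).symm ≪≫
      ((restrictComp ℓ (specMap K K₂ ≫ κ)).app P).symm
  exact i1 ≪≫ i2 ≪≫ i3 ≪≫ (FEt.restrict ℓ).mapIso (i4 ≪≫ i5 ≪≫ i6.symm ≪≫ i7.symm) ≪≫ i8 ≪≫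
    (restrictCongr hℓ₂).app P

/-- **Abhyankar's lemma for principal covers at a point of codimension one** (stalk form). -/
theorem extOver {X : Scheme.{u}} (U : X.Opens) (x : X) [IsDomain (X.presheaf.stalk x)]
    [IsDiscreteValuationRing (X.presheaf.stalk x)] (t : X.presheaf.stalk x) (ht : Irreducible t)
    (hU : X.fromSpecStalk x ⁻¹ᵁ U = PrimeSpectrum.basicOpen t)
    {G : Type v} [Group G] [Finite G] (P : FEt.Cat (U : Scheme.{u})) (ρ : G →* Aut P)
    (hP : SGA1t.IsPrincipal G P ρ) {N : ℕ} (hN0 : N ≠ 0) (hN : Nat.card G ∣ N)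
    (hNu : IsUnit ((N : ℕ) : X.residueField x)) {Y : Scheme.{u}}
    (g : Y ⟶ Spec (X.presheaf.stalk x)) (z : Γ(Y, ⊤))
    (hz : z ^ N = g.appTop.hom ((Scheme.ΓSpecIso (X.presheaf.stalk x)).inv.hom t)) :
    ∃ Y₁ : FEt.Cat Y, Nonempty ((FEt.restrict (pullback.snd U.ι (g ≫ X.fromSpecStalk x))).obj Y₁ ≅
      (FEt.restrict (pullback.fst U.ι (g ≫ X.fromSpecStalk x))).obj P) :=
  main ht hN0 hNu U (X.fromSpecStalk x) hU P ρ hP hN g z hz

end Groth.Agent.Pi1.H390.AbhPt
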