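import Groth.Agent.Pi1.H404.AlgCore
import Mathlib.RingTheory.IsTensorProduct
import Mathlib.RingTheory.Smooth.Basic

/-!
# Localizations of smooth algebras over a polynomial ring: the complement of a product of
coordinates in the spectrum of a local such algebra is connected
-/

set_option autoImplicit false
universe u

namespace Groth.Agent.Pi1.H390.LocSm

open TensorProduct Groth.Agent.Pi1.H404.AlgCore PrimeSpectrum

/-- `K` is a localization of a smooth `P`-algebra. -/
def LocSm (P K : Type u) [CommRing P] [CommRing K] [Algebra P K] : Prop :=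
  ∃ (K₀ : Type u) (_ : CommRing K₀) (_ : Algebra P K₀) (_ : Algebra K₀ K)
    (_ : IsScalarTower P K₀ K) (M : Submonoid K₀), Algebra.Smooth P K₀ ∧ IsLocalization M K

section Basic

variable {P K : Type u} [CommRing P] [CommRing K] [Algebra P K]

theorem LocSm.of_isLocalization (K₀ : Type u) [CommRing K₀] [Algebra P K₀] [Algebra K₀ K]
    [IsScalarTower P K₀ K] (M : Submonoid K₀) [Algebra.Smooth P K₀] [IsLocalization M K] :
    LocSm P K := ⟨K₀, inferInstance, inferInstance, inferInstance, inferInstance, M,
      inferInstance, inferInstance⟩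

theorem LocSm.of_equiv {K' : Type u} [CommRing K'] [Algebra P K'] (h : LocSm P K)
    (e : K ≃ₐ[P] K') : LocSm P K' := by
  obtain ⟨K₀, _, _, _, _, M, h1, h2⟩ := h
  let _ : Algebra K₀ K' := ((e : K →+* K').comp (algebraMap K₀ K)).toAlgebra
  have htow : IsScalarTower P K₀ K' := IsScalarTower.of_algebraMap_eq fun x => by
    change _ = e (algebraMap K₀ K (algebraMap P K₀ x))
    rw [← IsScalarTower.algebraMap_apply, e.commutes]
  let e' : K ≃ₐ[K₀] K' := { e with commutes' := fun x => rfl }
  have h3 : IsLocalization M K' := IsLocalization.isLocalization_of_algEquiv M e'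
  exact ⟨K₀, inferInstance, inferInstance, inferInstance, inferInstance, M, h1, h3⟩

theorem LocSm.baseChange (P' : Type u) [CommRing P'] [Algebra P P'] (h : LocSm P K) :
    LocSm P' (P' ⊗[P] K) := by
  obtain ⟨K₀, _, _, _, _, M, h1, h2⟩ := h
  let g : P' ⊗[P] K₀ →ₐ[P'] P' ⊗[P] K :=
    Algebra.TensorProduct.map (AlgHom.id P' P') (IsScalarTower.toAlgHom P K₀ K)
  let _ : Algebra (P' ⊗[P] K₀) (P' ⊗[P] K) := g.toRingHom.toAlgebra
  have htow : IsScalarTower P' (P' ⊗[P] K₀) (P' ⊗[P] K) :=
    IsScalarTower.of_algebraMap_eq fun x => (g.commutes x).symm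
  have hloc := IsLocalization.tensorProduct_tensorProduct_right P P' M K (by
    ext x
    change g (1 ⊗ₜ x) = 1 ⊗ₜ algebraMap K₀ K x
    simp [g])
  exact ⟨P' ⊗[P] K₀, inferInstance, inferInstance, inferInstance, inferInstance, _,
    inferInstance, hloc⟩

theorem LocSm.of_isPushout {P' K' : Type u} [CommRing P'] [CommRing K'] [Algebra P P']
    [Algebra K K'] [Algebra P' K'] [Algebra P K'] [IsScalarTower P K K'] [IsScalarTower P P' K']
    [Algebra.IsPushout P P' K K'] (h : LocSm P K) : LocSm P' K' :=
  (h.baseChange P').of_equiv (Algebra.IsPushout.equiv P P' K K')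

theorem LocSm.bijective (h : LocSm P K) (L : Type u) [CommRing L] [Algebra P L] :
    Function.Bijective (TensorProduct.toIntegralClosure P K L) := by
  obtain ⟨K₀, _, _, _, _, M, h1, h2⟩ := h
  exact TensorProduct.toIntegralClosure_bijective_of_tower
    TensorProduct.toIntegralClosure_bijective_of_smooth
    (TensorProduct.toIntegralClosure_bijective_of_isLocalization M)

theorem LocSm.flat (h : LocSm P K) : Module.Flat P K := by
  obtain ⟨K₀, _, _, _, _, M, h1, h2⟩ := h
  have h3 : Module.Flat K₀ K := IsLocalization.flat K M
  exact Module.Flat.trans P K₀ K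

end Basic

section Reduced

variable {A : Type u} [CommRing A] {σ : Type u} (K : Type u) [CommRing K]
  [Algebra (MvPolynomial σ A) K]

theorem mem_range_of_isIntegral_locSm [IsReduced A] (s : Finset σ)
    (h : LocSm (MvPolynomial σ A) K) (C : Type u) [CommRing C]
    [Algebra K C] [IsLocalization.Away (ttB A s K) C] (y : C)
    (hy : IsIntegral K y) : y ∈ Set.range (algebraMap K C) := by
  let L := Localization.Away (tt A s)
  let e : C ≃ₐ[K] K ⊗[MvPolynomial σ A] L :=
    IsLocalization.algEquiv (Submonoid.powers (ttB A s K)) C _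
  have h1 : IsIntegral K (e y) := hy.map e
  obtain ⟨w, hw⟩ := (h.bijective L).2 ⟨e y, h1⟩
  have key : ∀ w : K ⊗[MvPolynomial σ A] integralClosure (MvPolynomial σ A) L,
      ((TensorProduct.toIntegralClosure (MvPolynomial σ A) K L w :
        integralClosure K (K ⊗[MvPolynomial σ A] L)) : K ⊗[MvPolynomial σ A] L) ∈
        (⊥ : Subalgebra K (K ⊗[MvPolynomial σ A] L)) := by
    intro w
    induction w with
    | zero => simp
    | add x y hx hy =>
      rw [map_add]
      exact add_mem hx hy
    | tmul b z =>
      obtain ⟨p, hp⟩ := mem_range_of_isIntegral s L z.1 z.2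
      change b ⊗ₜ[MvPolynomial σ A] z.1 ∈ _
      rw [← hp, Algebra.algebraMap_eq_smul_one, ← TensorProduct.smul_tmul]
      exact ⟨p • b, rfl⟩
  have h2 := key w
  rw [hw] at h2
  obtain ⟨b, hb⟩ := h2
  refine ⟨b, ?_⟩
  apply e.injective
  rw [e.commutes]
  exact hb

/-- For a local ring `K` which is a localization of a smooth algebra over a polynomial ring with
reduced coefficients, the localization of `K` at a product of coordinates has only trivial
idempotents. -/
theorem idempotent_trivial [IsReduced A] [IsLocalRing K] (s : Finset σ)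
    (h : LocSm (MvPolynomial σ A) K) (C : Type u) [CommRing C]
    [Algebra K C] [IsLocalization.Away (ttB A s K) C] (e : C) (he : IsIdempotentElem e) :
    e = 0 ∨ e = 1 := by
  have hflat := h.flat
  have hinj : Function.Injective (algebraMap K C) :=
    IsLocalization.injective C (M := Submonoid.powers (ttB A s K))
      (Submonoid.powers_le.2 (ttB_mem_nonZeroDivisors K s))
  have hint : IsIntegral K e := by
    refine ⟨Polynomial.X ^ 2 - Polynomial.X, ?_, ?_⟩
    · apply Polynomial.monic_X_pow_sub
      exact Polynomial.degree_X_le.trans_lt (by exact_mod_cast one_lt_two)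
    · simp [sq, he.eq]
  obtain ⟨e', rfl⟩ := mem_range_of_isIntegral_locSm (A := A) K s h C e hint
  have he' : IsIdempotentElem e' := by
    apply hinj
    rw [map_mul]
    exact he
  have h0 : e' * (1 - e') = 0 := by rw [mul_sub, mul_one, he'.eq, sub_self]
  rcases IsLocalRing.isUnit_or_isUnit_one_sub_self e' with hu | hu
  · right
    have : 1 - e' = 0 := by
      have := hu.mul_left_cancel (h0.trans (mul_zero e').symm)
      exact this
    rw [← sub_eq_zero.mp this, map_one]
  · left
    have : e' = 0 := by
      have := hu.mul_right_cancel (h0.trans (zero_mul _).symm)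
      exact this
    rw [this, map_zero]

end Reduced

section General

variable {A : Type u} [CommRing A] {σ : Type u} (K : Type u) [CommRing K]
  [Algebra (MvPolynomial σ A) K]

theorem preconnectedSpace_of_idempotent {C : Type u} [CommRing C]
    (h : ∀ e : C, IsIdempotentElem e → e = 0 ∨ e = 1) : PreconnectedSpace (PrimeSpectrum C) := by
  rw [preconnectedSpace_iff_clopen]
  intro Z hZ
  obtain ⟨e, he, rfl⟩ := exists_idempotent_basicOpen_eq_of_isClopen hZ
  rcases h e he with rfl | rfl
  · left
    simp
  · right
    simp

/-- For a local ring `K` which is a localization of a smooth algebra over a polynomial ring, the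
complement in `Spec K` of a product of coordinates is connected. -/
theorem isPreconnected_basicOpen [IsLocalRing K] (s : Finset σ)
    (h : LocSm (MvPolynomial σ A) K) :
    IsPreconnected (basicOpen (ttB A s K) : Set (PrimeSpectrum K)) := by
  let P := MvPolynomial σ A
  let A' := A ⧸ nilradical A
  let P' := MvPolynomial σ A'
  let _ : Algebra P P' := algPred A σ
  let c := comap (toRed P P' K)
  have hc : IsHomeomorph c := isHomeomorph_comap_toRed (map_mk_surjective A σ)
    (fun p hp => isNilpotent_of_map_mk hp)
  have htt : toRed P P' K (ttB A s K) = ttB A' s (P' ⊗[P] K) := by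
    refine (toRed_algebraMap (tt A s)).trans ?_
    have : algebraMap P P' (tt A s) = tt A' s := by
      change MvPolynomial.map _ _ = _
      simp [tt]
    rw [this]
  have hD : c ⁻¹' (basicOpen (ttB A s K) : Set (PrimeSpectrum K)) =
      basicOpen (ttB A' s (P' ⊗[P] K)) := by
    rw [← htt]
    rfl
  have hnt : Nontrivial (P' ⊗[P] K) := by
    obtain ⟨q, -⟩ := hc.surjective (IsLocalRing.closedPoint K)
    exact q.nontrivial
  have hsurj : Function.Surjective (toRed P P' K) :=
    Algebra.TensorProduct.includeRight_surjective K (map_mk_surjective A σ)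
  have hloc : IsLocalRing (P' ⊗[P] K) := IsLocalRing.of_surjective' _ hsurj
  let C := Localization.Away (ttB A' s (P' ⊗[P] K))
  have hC : PreconnectedSpace (PrimeSpectrum C) := preconnectedSpace_of_idempotent
    (fun e he => idempotent_trivial (A := A') (σ := σ) (P' ⊗[P] K) s (h.baseChange P') C e he)
  have hr : Set.range (comap (algebraMap (P' ⊗[P] K) C)) = basicOpen (ttB A' s (P' ⊗[P] K)) :=
    localization_away_comap_range C _
  have h1 : IsPreconnected (basicOpen (ttB A' s (P' ⊗[P] K)) : Set (PrimeSpectrum (P' ⊗[P] K))) := by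
    rw [← hr]
    exact isPreconnected_range (continuous_comap _)
  have h2 := h1.image c hc.continuous.continuousOn
  rwa [← hD, Set.image_preimage_eq _ hc.surjective] at h2

theorem isConnected_basicOpen [IsLocalRing K] (s : Finset σ)
    (h : LocSm (MvPolynomial σ A) K) :
    IsConnected (basicOpen (ttB A s K) : Set (PrimeSpectrum K)) := by
  refine ⟨?_, isPreconnected_basicOpen K s h⟩
  have hflat := h.flat
  have := exists_mem_basicOpen_inter (A := A) K s Set.univ isOpen_univ
    ⟨IsLocalRing.closedPoint K, trivial⟩
  rwa [Set.univ_inter] at this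

end General

end Groth.Agent.Pi1.H390.LocSm
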