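import Groth.Agent.Pi1.H390.KumBasic
import Groth.Agent.Pi1.H390.LocSm
import Mathlib.Algebra.Category.Ring.Constructions

/-!
# The Kummer algebra as a base change of `R[t] → R[t']`, `t_{e i} ↦ t'_{e i} ^ n_i`
-/

set_option autoImplicit false
universe u

namespace Groth.Agent.Pi1.H390.KumPush

open CategoryTheory CategoryTheory.Limits
open Groth.Agent.Pi1.H390.KumBasic Groth.Agent.Pi1.H390.LocSm
open Groth.Agent.Pi1.H404.AlgCore (tt ttB)

section Push

variable (R : Type u) [CommRing R] {σ : Type u} {ι : Type} (e : ι → σ) (n : ι → ℕ)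

/-- The exponents, extended by `1`. -/
noncomputable def expo : σ → ℕ := Function.extend e n (fun _ => 1)

/-- `t_{e i} ↦ t_{e i} ^ n_i`, the other variables being fixed. -/
noncomputable def pw : MvPolynomial σ R →+* MvPolynomial σ R :=
  MvPolynomial.eval₂Hom MvPolynomial.C (fun j => MvPolynomial.X j ^ expo e n j)

variable {R}
variable {A : Type u} [CommRing A] (ψ : MvPolynomial σ R →+* A)

/-- The images of the coordinates. -/
noncomputable abbrev im (i : ι) : A := ψ (MvPolynomial.X (e i))

/-- The new chart: `t_{e i} ↦ T_i`. -/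
noncomputable def θ : MvPolynomial σ R →+* SGA1t.kummer A (im e ψ) n :=
  MvPolynomial.eval₂Hom ((algebraMap A _).comp (ψ.comp MvPolynomial.C))
    (Function.extend e (T (im e ψ) n) (fun j => algebraMap A _ (ψ (MvPolynomial.X j))))

theorem θ_C (r : R) : θ e n ψ (MvPolynomial.C r) = algebraMap A _ (ψ (MvPolynomial.C r)) :=
  MvPolynomial.eval₂_C _ _ _

theorem θ_X (j : σ) : θ e n ψ (MvPolynomial.X j) =
    Function.extend e (T (im e ψ) n) (fun j => algebraMap A _ (ψ (MvPolynomial.X j))) j :=
  MvPolynomial.eval₂_X _ _ _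

variable (he : Function.Injective e)
include he

theorem θ_X_apply (i : ι) : θ e n ψ (MvPolynomial.X (e i)) = T (im e ψ) n i := by
  rw [θ_X, he.extend_apply]

theorem expo_apply (i : ι) : expo e n (e i) = n i := he.extend_apply _ _ _

theorem θ_comp_pw : (θ e n ψ).comp (pw R e n) =
    (algebraMap A (SGA1t.kummer A (im e ψ) n)).comp ψ := by
  refine MvPolynomial.ringHom_ext (fun r => ?_) (fun j => ?_)
  · rw [RingHom.comp_apply, RingHom.comp_apply]
    have : pw R e n (MvPolynomial.C r) = MvPolynomial.C r := MvPolynomial.eval₂_C _ _ _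
    rw [this, θ_C]
  · rw [RingHom.comp_apply, RingHom.comp_apply]
    have : pw R e n (MvPolynomial.X j) = MvPolynomial.X j ^ expo e n j := MvPolynomial.eval₂_X _ _ _
    rw [this, map_pow]
    by_cases hj : ∃ i, e i = j
    · obtain ⟨i, rfl⟩ := hj
      rw [θ_X_apply e n ψ he, expo_apply e n he, T_pow]
    · rw [θ_X, Function.extend_apply' _ _ _ hj]
      have h1 : expo e n j = 1 := Function.extend_apply' _ _ _ hj
      rw [h1, pow_one]

section Desc

variable {S : Type u} [CommRing S] (f : MvPolynomial σ R →+* S) (g : A →+* S)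
  (hfg : f.comp (pw R e n) = g.comp ψ)

include hfg in
theorem desc_aux (i : ι) : f (MvPolynomial.X (e i)) ^ n i = g (im e ψ i) := by
  have h1 : pw R e n (MvPolynomial.X (e i)) = MvPolynomial.X (e i) ^ n i := by
    refine (MvPolynomial.eval₂_X _ _ _).trans ?_
    rw [expo_apply e n he]
  rw [← map_pow, ← h1]
  exact RingHom.congr_fun hfg (MvPolynomial.X (e i))

/-- The map out of the Kummer algebra given by the universal property, as an algebra map. -/
noncomputable def descAlg : letI : Algebra A S := g.toAlgebra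
    SGA1t.kummer A (im e ψ) n →ₐ[A] S :=
  letI : Algebra A S := g.toAlgebra
  lift (im e ψ) n (fun i => f (MvPolynomial.X (e i))) (desc_aux e n ψ he f g hfg)

/-- The map out of the Kummer algebra given by the universal property. -/
noncomputable def desc : SGA1t.kummer A (im e ψ) n →+* S :=
  letI : Algebra A S := g.toAlgebra
  (descAlg e n ψ he f g hfg : SGA1t.kummer A (im e ψ) n →+* S)

theorem desc_algebraMap (x : A) :
    desc e n ψ he f g hfg (algebraMap A (SGA1t.kummer A (im e ψ) n) x) = g x := by
  let _ : Algebra A S := g.toAlgebra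
  exact (descAlg e n ψ he f g hfg).commutes x

theorem desc_T (i : ι) :
    desc e n ψ he f g hfg (T (im e ψ) n i) = f (MvPolynomial.X (e i)) := by
  let _ : Algebra A S := g.toAlgebra
  exact lift_T (im e ψ) n (fun i => f (MvPolynomial.X (e i))) (desc_aux e n ψ he f g hfg) i

theorem desc_θ (p : MvPolynomial σ R) : desc e n ψ he f g hfg (θ e n ψ p) = f p := by
  have h : (desc e n ψ he f g hfg).comp (θ e n ψ) = f := by
    refine MvPolynomial.ringHom_ext (fun r => ?_) (fun j => ?_)
    · rw [RingHom.comp_apply, θ_C, desc_algebraMap]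
      have h1 : pw R e n (MvPolynomial.C r) = MvPolynomial.C r := MvPolynomial.eval₂_C _ _ _
      have h2 := RingHom.congr_fun hfg (MvPolynomial.C r)
      rw [RingHom.comp_apply, h1, RingHom.comp_apply] at h2
      exact h2.symm
    · rw [RingHom.comp_apply]
      by_cases hj : ∃ i, e i = j
      · obtain ⟨i, rfl⟩ := hj
        rw [θ_X_apply e n ψ he, desc_T]
      · rw [θ_X, Function.extend_apply' _ _ _ hj, desc_algebraMap]
        have h0 : expo e n j = 1 := Function.extend_apply' _ _ _ hj
        have h1 : pw R e n (MvPolynomial.X j) = MvPolynomial.X j := by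
          refine (MvPolynomial.eval₂_X _ _ _).trans ?_
          rw [h0, pow_one]
        have h2 := RingHom.congr_fun hfg (MvPolynomial.X j)
        rw [RingHom.comp_apply, h1, RingHom.comp_apply] at h2
        exact h2.symm
  exact RingHom.congr_fun h p

end Desc

/-- The Kummer algebra is the pushout of `pw` along `ψ`. -/
theorem isPushout : IsPushout (CommRingCat.ofHom (pw R e n)) (CommRingCat.ofHom ψ)
    (CommRingCat.ofHom (θ e n ψ))
    (CommRingCat.ofHom (algebraMap A (SGA1t.kummer A (im e ψ) n))) := by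
  have hw : ∀ s : PushoutCocone (CommRingCat.ofHom (pw R e n)) (CommRingCat.ofHom ψ),
      s.inl.hom.comp (pw R e n) = s.inr.hom.comp ψ := fun s =>
    congrArg CommRingCat.Hom.hom s.condition
  refine ⟨⟨?_⟩, ⟨PushoutCocone.IsColimit.mk _
    (fun s => CommRingCat.ofHom (desc e n ψ he s.inl.hom s.inr.hom (hw s)))
    (fun s => ?_) (fun s => ?_) (fun s m hm1 hm2 => ?_)⟩⟩
  · exact CommRingCat.hom_ext (θ_comp_pw e n ψ he)
  · exact CommRingCat.hom_ext (RingHom.ext fun x => desc_θ e n ψ he _ _ (hw s) x)
  · exact CommRingCat.hom_ext (RingHom.ext fun x => desc_algebraMap e n ψ he _ _ (hw s) x)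
  · refine CommRingCat.hom_ext (ringHom_ext ?_ fun i => ?_)
    · refine RingHom.ext fun x => ?_
      have h1 := RingHom.congr_fun (congrArg CommRingCat.Hom.hom hm2) x
      refine Eq.trans h1 ?_
      exact (desc_algebraMap e n ψ he _ _ (hw s) x).symm
    · have h1 := RingHom.congr_fun (congrArg CommRingCat.Hom.hom hm1) (MvPolynomial.X (e i))
      change m.hom (θ e n ψ (MvPolynomial.X (e i))) = s.inl.hom (MvPolynomial.X (e i)) at h1
      rw [θ_X_apply e n ψ he] at h1
      rw [h1]
      exact (desc_T e n ψ he _ _ (hw s) i).symm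

end Push

section LocSm

/-- `LocSm` for ring homomorphisms. -/
def LocSmHom {P K : Type u} [CommRing P] [CommRing K] (f : P →+* K) : Prop :=
  @LocSm P K _ _ f.toAlgebra

theorem LocSmHom.of_isPushout {P P' K K' : Type u} [CommRing P] [CommRing P'] [CommRing K]
    [CommRing K'] {f : P →+* P'} {g : P →+* K} {h : P' →+* K'} {k : K →+* K'}
    (hp : IsPushout (CommRingCat.ofHom f) (CommRingCat.ofHom g) (CommRingCat.ofHom h)
      (CommRingCat.ofHom k)) (hg : LocSmHom g) : LocSmHom h := by
  unfold LocSmHom at hg ⊢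
  let _ : Algebra P P' := f.toAlgebra
  let _ : Algebra P K := g.toAlgebra
  let _ : Algebra P' K' := h.toAlgebra
  let _ : Algebra K K' := k.toAlgebra
  let _ : Algebra P K' := (h.comp f).toAlgebra
  have h1 : IsScalarTower P P' K' := .of_algebraMap_eq fun _ => rfl
  have h2 : IsScalarTower P K K' := .of_algebraMap_eq fun a =>
    congrArg (fun φ => φ.hom a) hp.w
  have hpo : Algebra.IsPushout P P' K K' := CommRingCat.isPushout_iff_isPushout.mp hp
  exact LocSm.of_isPushout hg

end LocSm

section Conn

variable {R : Type u} [CommRing R] {σ : Type u} {ι : Type} [Finite ι] (e : ι → σ)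
  (he : Function.Injective e) (n : ι → ℕ) (hn : ∀ i, 1 ≤ n i)
  {A : Type u} [CommRing A] [IsLocalRing A] (ψ : MvPolynomial σ R →+* A)
  (hψ : LocSmHom ψ) (hm : ∀ i, im e ψ i ∈ IsLocalRing.maximalIdeal A)

include he hn hψ hm

/-- **Connectedness of Kummer covers.** `A` a local ring which is a localization of a smooth
algebra over `R[X_j]`, `X_{e i} ∈ m_A`. Then the complement of the divisors `T_i = 0` in the Spec of
the Kummer algebra `A[T_i]/(T_i^{n_i} - X_{e i})` is connected. -/
theorem isConnected : _root_.IsConnected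
    (PrimeSpectrum.basicOpen (algebraMap A (SGA1t.kummer A (im e ψ) n)
      (∏ᶠ i, im e ψ i)) : Set (PrimeSpectrum (SGA1t.kummer A (im e ψ) n))) := by
  classical
  cases nonempty_fintype ι
  have hK : IsLocalRing (SGA1t.kummer A (im e ψ) n) := KumBasic.isLocalRing _ n hm hn
  have hθ : LocSmHom (θ e n ψ) := LocSmHom.of_isPushout (isPushout e n ψ he) hψ
  let _ : Algebra (MvPolynomial σ R) (SGA1t.kummer A (im e ψ) n) := (θ e n ψ).toAlgebra
  have h := isConnected_basicOpen (A := R) (σ := σ) (SGA1t.kummer A (im e ψ) n)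
    (Finset.univ.image e) hθ
  convert h using 2
  have h1 : ttB R (Finset.univ.image e) (SGA1t.kummer A (im e ψ) n) = ∏ i, T (im e ψ) n i := by
    change θ e n ψ _ = _
    rw [tt, Finset.prod_image (fun i _ j _ h => he h), map_prod]
    exact Finset.prod_congr rfl fun i _ => θ_X_apply e n ψ he i
  rw [h1, finprod_eq_prod_of_fintype, map_prod]
  ext q
  simp only [SetLike.mem_coe, PrimeSpectrum.mem_basicOpen]
  rw [Ideal.IsPrime.prod_mem_iff, Ideal.IsPrime.prod_mem_iff, not_iff_not]
  refine exists_congr fun i => and_congr_right fun _ => ?_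
  rw [← T_pow]
  exact ⟨fun h => q.2.mem_of_pow_mem _ h, fun h => Ideal.pow_mem_of_mem _ h _ (hn i)⟩

end Conn

end Groth.Agent.Pi1.H390.KumPush
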