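import Groth.Agent.Pi1.H404.Chart
import Groth.Agent.Pi1.H390.KumPush

/-!
# Connectedness of the Kummer cover of the local ring at a point of a strict relative normal
crossings divisor
-/

set_option autoImplicit false
universe u

namespace Groth.Agent.Pi1.H390.KumConn

open CategoryTheory CategoryTheory.Limits AlgebraicGeometry
open Groth.Agent.Pi1.H390.KumBasic Groth.Agent.Pi1.H390.LocSm Groth.Agent.Pi1.H390.KumPush

section Germ

variable {X : Scheme.{u}} {B : CommRingCat.{u}} (j : Spec B ⟶ X) [IsOpenImmersion j] (z : Spec B)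

/-- The ring map `B → O_{X, j z}` for an open immersion `j : Spec B → X`. -/
noncomputable def ρ : B ⟶ X.presheaf.stalk (j z) :=
  (Scheme.ΓSpecIso B).inv ≫ (Spec B).presheaf.germ ⊤ z trivial ≫ inv (j.stalkMap z)

theorem ρ_appTop (s : Γ(X, ⊤)) :
    ρ j z ((Scheme.ΓSpecIso B).hom (j.appTop s)) = X.presheaf.germ ⊤ (j z) trivial s := by
  have h1 : j.appTop ≫ (Scheme.ΓSpecIso B).hom ≫ ρ j z = X.presheaf.germ ⊤ (j z) trivial := by
    rw [ρ, Iso.hom_inv_id_assoc, ← Category.assoc, IsIso.comp_inv_eq]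
    exact (Scheme.Hom.germ_stalkMap j ⊤ z trivial).symm
  exact congrArg (fun φ => φ.hom s) h1

theorem isLocalization_ρ : letI := (ρ j z).hom.toAlgebra
    IsLocalization.AtPrime (X.presheaf.stalk (j z)) z.asIdeal := by
  let _ : Algebra B (X.presheaf.stalk (j z)) := (ρ j z).hom.toAlgebra
  have hz : z.asIdeal.IsPrime := PrimeSpectrum.isPrime z
  let e0 : CommRingCat.of (Localization.AtPrime z.asIdeal) ≅ X.presheaf.stalk (j z) :=
    (Spec.stalkIso B z).symm ≪≫ (asIso (j.stalkMap z)).symm
  let e1 : Localization.AtPrime z.asIdeal ≃+* X.presheaf.stalk (j z) :=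
    e0.commRingCatIsoToRingEquiv
  let e : Localization.AtPrime z.asIdeal ≃ₐ[B] X.presheaf.stalk (j z) :=
    { e1 with
      commutes' := fun b => by
        have h1 : CommRingCat.ofHom (algebraMap B (Localization.AtPrime z.asIdeal)) ≫ e0.hom =
            ρ j z := by
          change CommRingCat.ofHom (algebraMap B (Localization.AtPrime z.asIdeal)) ≫
            (Spec.stalkIso B z).inv ≫ inv (j.stalkMap z) = _
          rw [← Category.assoc, Spec.algebraMap_stalkIso_inv, ρ, Category.assoc]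
        exact congrArg (fun φ => φ.hom b) h1 }
  exact IsLocalization.isLocalization_of_algEquiv _ e

end Germ

section Chart

variable {X S : Scheme.{u}} (f : X ⟶ S) {r : ℕ} (φ : Fin r → Γ(X, ⊤))

/-- Chart of the local ring at a point of a strict relative normal crossings divisor: it is a
localization of an etale (smooth) algebra over a polynomial ring, the `φ_k` vanishing at the point
being coordinates. -/
theorem exists_locSmHom (hD : SGA1t.IsRelSNC f φ) (x : X) (hx : Nonempty (SGA1t.vanishingAt φ x)) :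
    ∃ (A : CommRingCat.{u}) (σ : Type u) (ψ : MvPolynomial σ A →+* X.presheaf.stalk x)
      (e : SGA1t.vanishingAt φ x → σ), Function.Injective e ∧ LocSmHom ψ ∧
      ∀ k, (X.presheaf.germ ⊤ x trivial).hom (φ k.1) = ψ (MvPolynomial.X (e k)) := by
  obtain ⟨A, B, i, j, d, ψ, e, hi, hj, ⟨z, rfl⟩, he, hψ, -, hk, -⟩ :=
    Groth.Agent.Pi1.H404.Chart.exists_chart hD x hx
  refine ⟨A, ULift.{u} (Fin d), (ρ j z).hom.comp ψ.hom, fun k => ULift.up (e k),
    fun a b h => he (ULift.up_injective h), ?_, fun k => ?_⟩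
  · let _ : Algebra (MvPolynomial (ULift.{u} (Fin d)) A) (X.presheaf.stalk (j z)) :=
      ((ρ j z).hom.comp ψ.hom).toAlgebra
    let _ : Algebra (MvPolynomial (ULift.{u} (Fin d)) A) B := ψ.hom.toAlgebra
    let _ : Algebra B (X.presheaf.stalk (j z)) := (ρ j z).hom.toAlgebra
    have htow : IsScalarTower (MvPolynomial (ULift.{u} (Fin d)) A) B (X.presheaf.stalk (j z)) :=
      .of_algebraMap_eq fun _ => rfl
    have hz : z.asIdeal.IsPrime := PrimeSpectrum.isPrime z
    have het : Algebra.Etale (MvPolynomial (ULift.{u} (Fin d)) A) B := hψ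
    have hloc := isLocalization_ρ j z
    exact LocSm.of_isLocalization (B : Type u) z.asIdeal.primeCompl
  · change _ = (ρ j z).hom (ψ.hom (MvPolynomial.X (ULift.up (e k))))
    have := hk k
    rw [← ρ_appTop]
    exact congrArg (ρ j z).hom (hk k)

end Chart

section Conn

variable {X S : Scheme.{u}} (f : X ⟶ S) {r : ℕ} (φ : Fin r → Γ(X, ⊤))

theorem isConnected' {R : Type u} [CommRing R] {σ : Type u} {ι : Type} [Finite ι] (e : ι → σ)
    (he : Function.Injective e) (n : ι → ℕ) (hn : ∀ i, 1 ≤ n i)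
    {A : Type u} [CommRing A] [IsLocalRing A] (ψ : MvPolynomial σ R →+* A)
    (hψ : LocSmHom ψ) (a : ι → A) (ha : ∀ i, a i = ψ (MvPolynomial.X (e i)))
    (hm : ∀ i, a i ∈ IsLocalRing.maximalIdeal A) : _root_.IsConnected
    (PrimeSpectrum.basicOpen (algebraMap A (SGA1t.kummer A a n)
      (∏ᶠ i, a i)) : Set (PrimeSpectrum (SGA1t.kummer A a n))) := by
  obtain rfl : a = im e ψ := funext ha
  exact KumPush.isConnected e he n hn ψ hψ hm

theorem isConnected_stalk (hD : SGA1t.IsRelSNC f φ) (x : X) (hx : Nonempty (SGA1t.vanishingAt φ x))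
    (n : SGA1t.vanishingAt φ x → ℕ) (hn1 : ∀ i, 1 ≤ n i) :
    letI A := X.presheaf.stalk x
    letI a : SGA1t.vanishingAt φ x → A := fun i => (X.presheaf.germ ⊤ x trivial).hom (φ i.1)
    _root_.IsConnected (PrimeSpectrum.basicOpen (algebraMap A (SGA1t.kummer A a n)
      (∏ᶠ i, a i)) : Set (PrimeSpectrum (SGA1t.kummer A a n))) := by
  obtain ⟨A, σ, ψ, e, he, hψ, hk⟩ := exists_locSmHom f φ hD x hx
  refine isConnected' e he n hn1 ψ hψ _ hk fun i => ?_
  have h1 := i.2
  rw [Scheme.mem_basicOpen_top] at h1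
  exact (IsLocalRing.mem_maximalIdeal _).mpr h1

end Conn

end Groth.Agent.Pi1.H390.KumConn
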