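import Mathlib.AlgebraicGeometry.PullbackCarrier
import Mathlib.Algebra.Category.Ring.Constructions
import Groth.Agent.CycB.LocQuot

/-!
# Generation of residue fields of fibre products, residue fields of generizations
-/

set_option autoImplicit false
universe u

namespace Groth.Agent.Pi1.H390.ResGen

open AlgebraicGeometry CategoryTheory CategoryTheory.Limits
open AlgebraicGeometry.Scheme.Pullback

/-- The field `K` is generated, as a field, by the image of `ψ`. -/
def Gen {B K : Type u} [CommRing B] [Field K] (ψ : B →+* K) : Prop :=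
  Subfield.closure (Set.range ψ) = ⊤

theorem gen_of_comp {B K L : Type u} [CommRing B] [Field K] [Field L] {ψ : B →+* K}
    (e : K →+* L) (h : Gen (e.comp ψ)) : Gen ψ := by
  unfold Gen at h ⊢
  have h1 : Set.range (e.comp ψ) = e '' Set.range ψ := by rw [RingHom.coe_comp, Set.range_comp]
  rw [h1, ← RingHom.map_field_closure] at h
  rw [eq_top_iff]
  rintro z -
  have hz : e z ∈ (Subfield.closure (Set.range ψ)).map e := by rw [h]; trivial
  obtain ⟨z', hz', he⟩ := hz
  rwa [e.injective he] at hz'

theorem gen_of_precomp {B B' K : Type u} [CommRing B] [CommRing B'] [Field K] {ψ : B →+* K}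
    (σ : B' →+* B) (h : Gen (ψ.comp σ)) : Gen ψ := by
  unfold Gen at h ⊢
  rw [eq_top_iff, ← h]
  refine Subfield.closure_mono ?_
  rintro _ ⟨b, rfl⟩
  exact ⟨σ b, rfl⟩

theorem gen_precomp {B B' K : Type u} [CommRing B] [CommRing B'] [Field K] {ψ : B →+* K}
    (σ : B' →+* B) (hσ : Function.Surjective σ) (h : Gen ψ) : Gen (ψ.comp σ) := by
  unfold Gen at h ⊢
  rw [RingHom.coe_comp, hσ.range_comp, h]

theorem gen_residueField {R : Type u} [CommRing R] (p : Ideal R) [p.IsPrime] :
    Gen (algebraMap R p.ResidueField) := by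
  unfold Gen
  rw [eq_top_iff]
  rintro z -
  obtain ⟨a, b, hb, rfl⟩ := IsFractionRing.div_surjective (A := R ⧸ p) z
  obtain ⟨a, rfl⟩ := Ideal.Quotient.mk_surjective a
  obtain ⟨b, rfl⟩ := Ideal.Quotient.mk_surjective b
  exact div_mem (Subfield.subset_closure ⟨a, rfl⟩) (Subfield.subset_closure ⟨b, rfl⟩)

variable {X Y S : Scheme.{u}} {f : X ⟶ S} {g : Y ⟶ S}

theorem gen_ofPointTensor_aux (T : Triplet f g) (p : Spec T.tensor) :
    Gen (ofPointTensor (T.SpecTensorTo p)).hom := by
  have h := Triplet.Spec_ofPointTensor_SpecTensorTo T p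
  rw [← Scheme.Spec.map_residueFieldIso_inv_eq_fromSpecResidueField, ← Spec.map_comp,
    ← Spec.map_comp, ← Spec.map_comp, Spec.map_inj] at h
  have h1 : Gen ((Triplet.tensorCongr (T.ofPoint_SpecTensorTo p).symm).hom ≫
      (ofPointTensor (T.SpecTensorTo p) ≫
        Scheme.Hom.residueFieldMap T.SpecTensorTo p)).hom := by
    rw [← Category.assoc, h, CommRingCat.hom_comp]
    have hp : p.asIdeal.IsPrime := PrimeSpectrum.isPrime p
    have hg := @gen_residueField _ _ p.asIdeal hp
    unfold Gen at hg ⊢
    rw [RingHom.coe_comp, Set.range_comp]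
    rw [← RingHom.map_field_closure (Scheme.Spec.residueFieldIso T.tensor p).inv.hom]
    rw [eq_top_iff]
    rintro z -
    obtain ⟨z', rfl⟩ := (ConcreteCategory.bijective_of_isIso
      (Scheme.Spec.residueFieldIso T.tensor p).inv).2 z
    refine ⟨z', ?_, rfl⟩
    change z' ∈ Subfield.closure _
    erw [hg]
    trivial
  rw [CommRingCat.hom_comp, CommRingCat.hom_comp] at h1
  exact gen_of_comp _ (gen_of_precomp _ h1)

theorem gen_ofPointTensor (t : ↥(pullback f g)) : Gen (ofPointTensor t).hom := by
  have := gen_ofPointTensor_aux (Triplet.ofPoint t) (SpecOfPoint t)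
  rwa [SpecTensorTo_SpecOfPoint] at this

/-- The residue field of a point of a fibre product is generated by the residue fields of its
projections. -/
theorem closure_residueFieldMap (t : ↥(pullback f g)) :
    Subfield.closure (Set.range ((pullback.fst f g).residueFieldMap t).hom ∪
      Set.range ((pullback.snd f g).residueFieldMap t).hom) = ⊤ := by
  set F := Subfield.closure (Set.range ((pullback.fst f g).residueFieldMap t).hom ∪
      Set.range ((pullback.snd f g).residueFieldMap t).hom) with hF
  have hgen := gen_ofPointTensor t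
  set T := Triplet.ofPoint t with hT
  have h1 : T.tensorInl ≫ ofPointTensor t = (pullback.fst f g).residueFieldMap t :=
    pushout.inl_desc _ _ _
  have h2 : T.tensorInr ≫ ofPointTensor t = (pullback.snd f g).residueFieldMap t :=
    pushout.inr_desc _ _ _
  let φ₁ := (S.residueFieldCongr T.hx).inv ≫ f.residueFieldMap T.x
  let φ₂ := (S.residueFieldCongr T.hy).inv ≫ g.residueFieldMap T.y
  have hpo : CategoryTheory.IsPushout φ₁ φ₂ T.tensorInl T.tensorInr :=
    CategoryTheory.IsPushout.of_hasPushout _ _
  let _ : Algebra (S.residueField T.s) (X.residueField T.x) := φ₁.hom.toAlgebra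
  let _ : Algebra (S.residueField T.s) (Y.residueField T.y) := φ₂.hom.toAlgebra
  let _ : Algebra (X.residueField T.x) T.tensor := T.tensorInl.hom.toAlgebra
  let _ : Algebra (Y.residueField T.y) T.tensor := T.tensorInr.hom.toAlgebra
  let _ : Algebra (S.residueField T.s) T.tensor := (φ₁ ≫ T.tensorInl).hom.toAlgebra
  have : IsScalarTower (S.residueField T.s) (X.residueField T.x) T.tensor :=
    .of_algebraMap_eq fun _ => rfl
  have : IsScalarTower (S.residueField T.s) (Y.residueField T.y) T.tensor :=
    .of_algebraMap_eq fun a => congrArg (fun φ => φ.hom a) hpo.w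
  have hpo' : Algebra.IsPushout (S.residueField T.s) (X.residueField T.x) (Y.residueField T.y)
    T.tensor := CommRingCat.isPushout_iff_isPushout.mp hpo
  have key : ∀ z : T.tensor, (ofPointTensor t).hom z ∈ F := by
    intro z
    induction z using hpo'.1.inductionOn with
    | zero => rw [map_zero]; exact zero_mem _
    | tmul m =>
      refine Subfield.subset_closure (Or.inr ⟨m, ?_⟩)
      rw [← h2]
      rfl
    | smul s z hz =>
      rw [Algebra.smul_def, map_mul]
      refine mul_mem (Subfield.subset_closure (Or.inl ⟨s, ?_⟩)) hz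
      rw [← h1]
      rfl
    | add x y hx hy => rw [map_add]; exact add_mem hx hy
  rw [eq_top_iff, ← hgen, Subfield.closure_le]
  rintro _ ⟨z, rfl⟩
  exact key z

/-- The residue field of a generization is generated by the local ring. -/
theorem gen_residue_stalkSpecializes {y u : X} (h : u ⤳ y) :
    Gen ((X.residue u).hom.comp (X.presheaf.stalkSpecializes h).hom) := by
  unfold Gen
  rw [eq_top_iff]
  rintro z -
  obtain ⟨z, rfl⟩ := X.residue_surjective u z
  let := (X.presheaf.stalkSpecializes h).hom.toAlgebra
  have hloc := Groth.Agent.CycB.LocQuot.isLocalization_stalkSpecializes h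
  obtain ⟨⟨a, s⟩, has⟩ := IsLocalization.surj (RingHom.ker (Cyc.specMap y u h)).primeCompl z
  have hs : IsUnit ((X.residue u).hom ((X.presheaf.stalkSpecializes h).hom (s : X.presheaf.stalk y))) :=
    (IsLocalization.map_units (X.presheaf.stalk u) s).map (X.residue u).hom
  have h2 : (X.residue u).hom z * (X.residue u).hom ((X.presheaf.stalkSpecializes h).hom
      (s : X.presheaf.stalk y)) = (X.residue u).hom ((X.presheaf.stalkSpecializes h).hom a) := by
    rw [← map_mul]
    exact congrArg (X.residue u).hom has
  have h3 : (X.residue u).hom z = (X.residue u).hom ((X.presheaf.stalkSpecializes h).hom a) /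
      (X.residue u).hom ((X.presheaf.stalkSpecializes h).hom (s : X.presheaf.stalk y)) :=
    eq_div_of_mul_eq hs.ne_zero h2
  change (X.residue u).hom z ∈ _
  rw [h3]
  exact div_mem (Subfield.subset_closure ⟨a, rfl⟩) (Subfield.subset_closure ⟨s, rfl⟩)

/-- If `O_{X,y}` is a DVR and `u` a proper generization of `y`, then `O_{X,y} → κ(u)` is
injective. -/
theorem injective_of_isDiscreteValuationRing {y u : X} (h : u ⤳ y) (hne : u ≠ y)
    [IsDomain (X.presheaf.stalk y)] [IsDiscreteValuationRing (X.presheaf.stalk y)] :
    Function.Injective ((X.residue u).hom.comp (X.presheaf.stalkSpecializes h).hom) := by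
  rw [RingHom.injective_iff_ker_eq_bot]
  set p := RingHom.ker ((X.residue u).hom.comp (X.presheaf.stalkSpecializes h).hom) with hp
  have hprime : p.IsPrime := RingHom.ker_isPrime _
  by_contra hbot
  have hmax : p.IsMaximal := Ideal.IsPrime.isMaximal hprime hbot
  have hmax' : p = IsLocalRing.maximalIdeal _ := IsLocalRing.eq_maximalIdeal hmax
  apply hne
  have h1 : (Spec.map (X.presheaf.stalkSpecializes h) ≫ X.fromSpecStalk y)
      (IsLocalRing.closedPoint (X.presheaf.stalk u)) = u := by
    rw [Scheme.SpecMap_stalkSpecializes_fromSpecStalk]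
    exact Scheme.fromSpecStalk_closedPoint
  have h2 : Spec.map (X.presheaf.stalkSpecializes h) (IsLocalRing.closedPoint (X.presheaf.stalk u)) =
      IsLocalRing.closedPoint (X.presheaf.stalk y) := by
    refine PrimeSpectrum.ext ?_
    change (IsLocalRing.maximalIdeal (X.presheaf.stalk u)).comap (X.presheaf.stalkSpecializes h).hom =
      IsLocalRing.maximalIdeal _
    rw [← hmax', hp, ← RingHom.comap_ker]
    congr 1
    exact (IsLocalRing.ker_residue (R := X.presheaf.stalk u)).symm
  rw [Scheme.Hom.comp_apply, h2, Scheme.fromSpecStalk_closedPoint] at h1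
  exact h1.symm

end Groth.Agent.Pi1.H390.ResGen
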