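import Groth.Agent.Pi1.H390.T1KumBC
import Groth.Agent.Pi1.H384.NormFin
import Groth.Agent.Pi1.H384.DenseCoord
import Groth.Agent.Pi1.H385.NormOpen

/-!
# The normalization of a curve in the Kummer cover of a chart is finite and surjective
-/

set_option autoImplicit false

universe u

open CategoryTheory CategoryTheory.Limits AlgebraicGeometry

namespace Groth.Agent.Pi1.H390.T1Cover

open Groth.Agent.Pi1.H390.T1Line Groth.Agent.Pi1.H390.T1Space Groth.Agent.Pi1.H390.T1KumBC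

/-- Étaleness of a restriction over an open of an open subscheme. -/
theorem etale_restrict_image {E X : Scheme.{u}} (W : X.Opens) (r : E ⟶ W) (B : (W : Scheme.{u}).Opens)
    [Etale (r ∣_ B)] : Etale ((r ≫ W.ι) ∣_ (W.ι ''ᵁ B)) := by
  have hle : (r ≫ W.ι) ⁻¹ᵁ (W.ι ''ᵁ B) ≤ r ⁻¹ᵁ B := by
    rw [Scheme.Hom.comp_preimage, Scheme.Hom.preimage_image_eq]
  have h1 : Etale ((r ⁻¹ᵁ B).ι ≫ r) := by
    rw [← morphismRestrict_ι]
    infer_instance
  have h2 : Etale (E.homOfLE hle ≫ (r ⁻¹ᵁ B).ι ≫ r) := inferInstance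
  rw [← Category.assoc, Scheme.homOfLE_ι] at h2
  have h3 : Etale ((((r ≫ W.ι) ⁻¹ᵁ (W.ι ''ᵁ B)).ι ≫ r) ≫ W.ι) := inferInstance
  rw [Category.assoc, ← morphismRestrict_ι] at h3
  exact Etale.of_comp _ (W.ι ''ᵁ B).ι

instance isAffineHom_kap (N : ℕ) : IsAffineHom (kap.{u} N) :=
  inferInstanceAs (IsAffineHom (Spec.map (CommRingCat.ofHom (T1KumRing.kapHom N))))

instance isAffineHom_q {X : Scheme.{u}} (f : Γ(X, ⊤)) (N : ℕ) : IsAffineHom (q f N) :=
  MorphismProperty.pullback_fst (P := @IsAffineHom) (toLine f) (kap N) inferInstance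

variable {T X : Scheme.{u}} [IsIntegral X] [IsLocallyNoetherian X] [X.IsSeparated] (p : X ⟶ T)

omit [IsIntegral X] [IsLocallyNoetherian X] in
theorem isAffineHom_ι {W : X.Opens} (hW : IsAffineOpen W) : IsAffineHom W.ι := by
  have : IsAffine W := hW
  have h : IsAffineHom (W.ι ≫ terminal.from X) := by
    rw [terminal.comp_from]
    infer_instance
  exact IsAffineHom.of_comp W.ι (terminal.from X)

theorem isFinite (hX : Pi1.IsNormalScheme X) {W : X.Opens} (hW : IsAffineOpen W)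
    (hW0 : (W : Set X).Nonempty) (f : Γ(W, ⊤))
    (hf : Etale (AffineSpace.homOfVector (W.ι ≫ p) (fun _ : PUnit.{u+1} => f))) {N : ℕ}
    (hN : N ≠ 0) (hNW : IsUnit ((N : ℕ) : Γ(W, ⊤))) : IsFinite (q f N ≫ W.ι).fromNormalization := by
  have h1 : IsAffineHom W.ι := isAffineHom_ι hW
  have h2 : IsFinite (q f N) := isFinite_q f hN
  have h3 : Flat (q f N) := flat_q f hN
  have h4 : Etale (q f N ∣_ W.toScheme.basicOpen f) := etale_restrict f hN hNW _ le_rfl
  have h5 := etale_restrict_image W (q f N) (W.toScheme.basicOpen f)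
  have hd : Dense (W.toScheme.basicOpen f : Set W) :=
    Groth.Agent.Pi1.H384.DenseCoord.dense_of_etale (W.ι ≫ p) _ hf PUnit.unit
  have hne : Nonempty W := hW0.to_subtype
  obtain ⟨x, hx⟩ := hd.nonempty
  exact Groth.Agent.Pi1.H384.NormFin.isFinite_fromNormalization (q f N ≫ W.ι) hX
    (W.ι ''ᵁ W.toScheme.basicOpen f) ⟨W.ι x, ⟨x, hx, rfl⟩⟩

omit [IsLocallyNoetherian X] [X.IsSeparated] in
theorem surjective {W : X.Opens} (hW0 : (W : Set X).Nonempty) (f : Γ(W, ⊤)) {N : ℕ} (hN : N ≠ 0)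
    [QuasiCompact W.ι] : Surjective (q f N ≫ W.ι).fromNormalization := by
  have h1 : Surjective (q f N) := surjective_q f hN
  refine ⟨Set.range_eq_univ.mp ?_⟩
  have h2 : IsClosed (Set.range (q f N ≫ W.ι).fromNormalization) :=
    (q f N ≫ W.ι).fromNormalization.isClosedMap.isClosed_range
  have h3 : (W : Set X) ⊆ Set.range (q f N ≫ W.ι).fromNormalization := by
    intro x hx
    obtain ⟨e, he⟩ := h1.surj ⟨x, hx⟩
    refine ⟨(q f N ≫ W.ι).toNormalization e, ?_⟩
    rw [← Scheme.Hom.comp_apply, Scheme.Hom.toNormalization_fromNormalization,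
      Scheme.Hom.comp_apply, he]
    rfl
  have h4 : Dense (W : Set X) := W.2.dense hW0
  rw [← h2.closure_eq]
  exact (h4.mono h3).closure_eq

end Groth.Agent.Pi1.H390.T1Cover
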