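import Groth.Agent.Pi1.H390.T1Sec
import Groth.Prelude.Def_Desc

/-!
# Descent data from a base change

`m : S₁ ⟶ S` universally fully faithful for finite étale covers, `q : S' ⟶ S`, `Z` finite étale over
`S₁`, `V` finite étale over `S'` with the same pullback to `S' ×_S S₁`. Then `V` carries a descent
datum relative to `q`.
-/

set_option autoImplicit false

universe u

open CategoryTheory CategoryTheory.Limits AlgebraicGeometry

namespace Groth.Agent.Pi1.H390.T1DD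

open Groth.Agent.Pi1A.FEtAffine Groth.Agent.Pi1.H390.T1Sec

section

variable {S S₁ S' P : Scheme.{u}} {m : S₁ ⟶ S} {q : S' ⟶ S} {q₁ : P ⟶ S₁} {m' : P ⟶ S'}
  (hP : IsPullback q₁ m' m q) (V : FEt.Cat S') (Z : FEt.Cat S₁)
  (e : (FEt.restrict m').obj V ≅ (FEt.restrict q₁).obj Z)

/-- The projection of the common pullback to `Z`. -/
noncomputable def cc : ((FEt.restrict m').obj V).left ⟶ Z.left := e.hom.left ≫ proj q₁ Z

theorem cc_hom : cc V Z e ≫ Z.hom = ((FEt.restrict m').obj V).hom ≫ q₁ := by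
  rw [cc, Category.assoc, (isPullback q₁ Z).w, ← Category.assoc, hom_w]

theorem isIso_left : IsIso e.hom.left := by
  refine ⟨e.inv.left, ?_, ?_⟩
  · rw [← MorphismProperty.Comma.comp_left, e.hom_inv_id]
    rfl
  · rw [← MorphismProperty.Comma.comp_left, e.inv_hom_id]
    rfl

theorem isPullback_cc : IsPullback (cc V Z e) ((FEt.restrict m').obj V).hom Z.hom q₁ := by
  have := isIso_left V Z e
  refine IsPullback.of_iso (isPullback q₁ Z) (asIso e.hom.left).symm (Iso.refl _) (Iso.refl _)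
    (Iso.refl _) ?_ ?_ ?_ ?_
  · rw [Iso.refl_hom, Category.comp_id, Iso.symm_hom, asIso_inv, cc, IsIso.inv_hom_id_assoc]
  · rw [Iso.refl_hom, Category.comp_id, Iso.symm_hom, asIso_inv, IsIso.eq_inv_comp, hom_w]
  · simp
  · simp

section theta

variable {T : Scheme.{u}} (s : T ⟶ S)

/-- The base change of `x : T ⟶ S'` to `T ×_S S₁ ⟶ P`. -/
noncomputable def xOne (x : T ⟶ S') (hs : x ≫ q = s) : pullback s m ⟶ P :=
  hP.lift (pullback.snd s m) (pullback.fst s m ≫ x) (by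
    rw [Category.assoc, hs, pullback.condition])

@[simp]
theorem xOne_fst (x : T ⟶ S') (hs : x ≫ q = s) : xOne hP s x hs ≫ q₁ = pullback.snd s m :=
  hP.lift_fst _ _ _

@[simp]
theorem xOne_snd (x : T ⟶ S') (hs : x ≫ q = s) : xOne hP s x hs ≫ m' = pullback.fst s m ≫ x :=
  hP.lift_snd _ _ _

/-- The base change of a point of `V`. -/
noncomputable def vOne (x : T ⟶ S') (hs : x ≫ q = s) (v : T ⟶ V.left) (hv : v ≫ V.hom = x) :
    pullback s m ⟶ ((FEt.restrict m').obj V).left :=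
  (isPullback m' V).lift (pullback.fst s m ≫ v) (xOne hP s x hs) (by
    rw [Category.assoc, hv, xOne_snd])

theorem vOne_proj (x : T ⟶ S') (hs : x ≫ q = s) (v : T ⟶ V.left) (hv : v ≫ V.hom = x) :
    vOne hP V s x hs v hv ≫ proj m' V = pullback.fst s m ≫ v :=
  (isPullback m' V).lift_fst _ _ _

theorem vOne_hom (x : T ⟶ S') (hs : x ≫ q = s) (v : T ⟶ V.left) (hv : v ≫ V.hom = x) :
    vOne hP V s x hs v hv ≫ ((FEt.restrict m').obj V).hom = xOne hP s x hs :=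
  (isPullback m' V).lift_snd _ _ _

/-- The point of `Z` over `T ×_S S₁` attached to a point of `V` over `T`. -/
noncomputable def theta (x : T ⟶ S') (hs : x ≫ q = s) (v : T ⟶ V.left) (hv : v ≫ V.hom = x) :
    pullback s m ⟶ Z.left :=
  vOne hP V s x hs v hv ≫ cc V Z e

theorem theta_hom (x : T ⟶ S') (hs : x ≫ q = s) (v : T ⟶ V.left) (hv : v ≫ V.hom = x) :
    theta hP V Z e s x hs v hv ≫ Z.hom = pullback.snd s m := by
  rw [theta, Category.assoc, cc_hom, ← Category.assoc, vOne_hom, xOne_fst]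

theorem theta_unique (hm : UFF m) (x : T ⟶ S') (hs : x ≫ q = s) (v v' : T ⟶ V.left)
    (hv : v ≫ V.hom = x) (hv' : v' ≫ V.hom = x)
    (h : theta hP V Z e s x hs v hv = theta hP V Z e s x hs v' hv') : v = v' := by
  have h1 : vOne hP V s x hs v hv = vOne hP V s x hs v' hv' := by
    apply (isPullback_cc V Z e).hom_ext
    · exact h
    · rw [vOne_hom, vOne_hom]
  refine section_unique (pullback.fst s m) (hm s).2 V x v v' hv hv' ?_
  rw [← vOne_proj hP V s x hs v hv, ← vOne_proj hP V s x hs v' hv', h1]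

theorem theta_exists (hm : UFF m) (x : T ⟶ S') (hs : x ≫ q = s) (w : pullback s m ⟶ Z.left)
    (hw : w ≫ Z.hom = pullback.snd s m) :
    ∃ (v : T ⟶ V.left) (hv : v ≫ V.hom = x), theta hP V Z e s x hs v hv = w := by
  let t : pullback s m ⟶ ((FEt.restrict m').obj V).left :=
    (isPullback_cc V Z e).lift w (xOne hP s x hs) (by rw [hw, xOne_fst])
  have ht1 : t ≫ cc V Z e = w := (isPullback_cc V Z e).lift_fst _ _ _
  have ht2 : t ≫ ((FEt.restrict m').obj V).hom = xOne hP s x hs :=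
    (isPullback_cc V Z e).lift_snd _ _ _
  obtain ⟨v, hv, hv'⟩ := section_exists (pullback.fst s m) (hm s).1 V x (t ≫ proj m' V) (by
    rw [Category.assoc, (isPullback m' V).w, ← Category.assoc, ht2, xOne_snd])
  refine ⟨v, hv, ?_⟩
  rw [theta, ← ht1]
  congr 1
  apply (isPullback m' V).hom_ext
  · rw [vOne_proj, hv']
  · rw [vOne_hom, ht2]

/-- Naturality of `theta`. -/
theorem theta_comp {T' : Scheme.{u}} (g : T' ⟶ T) (s' : T' ⟶ S) (hg : g ≫ s = s') (x : T ⟶ S')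
    (hs : x ≫ q = s) (v : T ⟶ V.left) (hv : v ≫ V.hom = x) (hs' : (g ≫ x) ≫ q = s')
    (hv' : (g ≫ v) ≫ V.hom = g ≫ x) :
    theta hP V Z e s' (g ≫ x) hs' (g ≫ v) hv' =
      pullback.lift (pullback.fst s' m ≫ g) (pullback.snd s' m) (by
        rw [Category.assoc, hg, pullback.condition]) ≫ theta hP V Z e s x hs v hv := by
  rw [theta, theta, ← Category.assoc]
  congr 1
  apply (isPullback m' V).hom_ext
  · rw [Category.assoc, vOne_proj, vOne_proj, pullback.lift_fst_assoc, Category.assoc]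
  · rw [Category.assoc, vOne_hom, vOne_hom]
    apply hP.hom_ext
    · rw [Category.assoc, xOne_fst, xOne_fst, pullback.lift_snd]
    · rw [Category.assoc, xOne_snd, xOne_snd, pullback.lift_fst_assoc, Category.assoc]

end theta

variable (hm : UFF m)

/-- The gluing bijections. -/
noncomputable def phiFun {T : Scheme.{u}} (x₀ x₁ : T ⟶ S') (h : x₀ ≫ q = x₁ ≫ q)
    (v : Desc.Lifts (Over.mk V.hom) x₀) : Desc.Lifts (Over.mk V.hom) x₁ :=
  ⟨(theta_exists hP V Z e (x₀ ≫ q) hm x₁ h.symm (theta hP V Z e (x₀ ≫ q) x₀ rfl v.1 v.2)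
      (theta_hom hP V Z e _ _ _ _ _)).choose,
    (theta_exists hP V Z e (x₀ ≫ q) hm x₁ h.symm (theta hP V Z e (x₀ ≫ q) x₀ rfl v.1 v.2)
      (theta_hom hP V Z e _ _ _ _ _)).choose_spec.choose⟩

theorem theta_phiFun {T : Scheme.{u}} (x₀ x₁ : T ⟶ S') (h : x₀ ≫ q = x₁ ≫ q)
    (v : Desc.Lifts (Over.mk V.hom) x₀) (s : T ⟶ S) (hs₀ : x₀ ≫ q = s) (hs₁ : x₁ ≫ q = s) :
    theta hP V Z e s x₁ hs₁ (phiFun hP V Z e hm x₀ x₁ h v).1 (phiFun hP V Z e hm x₀ x₁ h v).2 =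
      theta hP V Z e s x₀ hs₀ v.1 v.2 := by
  subst hs₀
  exact (theta_exists hP V Z e (x₀ ≫ q) hm x₁ h.symm (theta hP V Z e (x₀ ≫ q) x₀ rfl v.1 v.2)
      (theta_hom hP V Z e _ _ _ _ _)).choose_spec.choose_spec

theorem phiFun_eq {T : Scheme.{u}} (x₀ x₁ : T ⟶ S') (h : x₀ ≫ q = x₁ ≫ q)
    (v : Desc.Lifts (Over.mk V.hom) x₀) (v' : Desc.Lifts (Over.mk V.hom) x₁) (s : T ⟶ S)
    (hs₀ : x₀ ≫ q = s) (hs₁ : x₁ ≫ q = s)
    (hv : theta hP V Z e s x₁ hs₁ v'.1 v'.2 = theta hP V Z e s x₀ hs₀ v.1 v.2) :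
    phiFun hP V Z e hm x₀ x₁ h v = v' :=
  Subtype.ext (theta_unique hP V Z e s hm x₁ hs₁ _ _ _ _
    ((theta_phiFun hP V Z e hm x₀ x₁ h v s hs₀ hs₁).trans hv.symm))

/-- The descent datum. -/
noncomputable def dd : Desc.SchDD q where
  obj := Over.mk V.hom
  φ T x₀ x₁ h :=
    { toFun := phiFun hP V Z e hm x₀ x₁ h
      invFun := phiFun hP V Z e hm x₁ x₀ h.symm
      left_inv := fun v => phiFun_eq hP V Z e hm x₁ x₀ h.symm _ v (x₀ ≫ q) h.symm rfl
        (theta_phiFun hP V Z e hm x₀ x₁ h v (x₀ ≫ q) rfl h.symm).symm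
      right_inv := fun v => phiFun_eq hP V Z e hm x₀ x₁ h _ v (x₀ ≫ q) rfl h.symm
        (theta_phiFun hP V Z e hm x₁ x₀ h.symm v (x₀ ≫ q) h.symm rfl).symm }
  φ_natural T T' g x₀ x₁ h h' v v' hv' := by
    have h1 : (g ≫ x₀) ≫ q = g ≫ x₀ ≫ q := Category.assoc _ _ _
    have h2 : (g ≫ x₁) ≫ q = g ≫ x₀ ≫ q := h'.symm.trans h1
    have hv2 : (g ≫ (phiFun hP V Z e hm x₀ x₁ h v).1) ≫ V.hom = g ≫ x₁ := by
      rw [Category.assoc]
      exact congrArg (g ≫ ·) (phiFun hP V Z e hm x₀ x₁ h v).2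
    have hv3 : (g ≫ v.1) ≫ V.hom = g ≫ x₀ := by
      rw [Category.assoc]
      exact congrArg (g ≫ ·) v.2
    have h3 : v' = ⟨g ≫ v.1, hv3⟩ := Subtype.ext hv'
    subst h3
    refine congrArg Subtype.val (phiFun_eq hP V Z e hm (g ≫ x₀) (g ≫ x₁) h' ⟨g ≫ v.1, hv3⟩
      ⟨g ≫ (phiFun hP V Z e hm x₀ x₁ h v).1, hv2⟩ (g ≫ x₀ ≫ q) h1 h2 ?_)
    rw [theta_comp hP V Z e (x₀ ≫ q) g (g ≫ x₀ ≫ q) rfl x₀ rfl v.1 v.2 h1 hv3,
      theta_comp hP V Z e (x₀ ≫ q) g (g ≫ x₀ ≫ q) rfl x₁ h.symm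
        (phiFun hP V Z e hm x₀ x₁ h v).1 (phiFun hP V Z e hm x₀ x₁ h v).2 h2 hv2,
      theta_phiFun hP V Z e hm x₀ x₁ h v (x₀ ≫ q) rfl h.symm]
  φ_self T x v := phiFun_eq hP V Z e hm x x rfl v v (x ≫ q) rfl rfl rfl
  φ_comp T x₀ x₁ x₂ h₀₁ h₁₂ v :=
    (phiFun_eq hP V Z e hm x₁ x₂ h₁₂ _ _ (x₀ ≫ q) h₀₁.symm (h₀₁.trans h₁₂).symm
      ((theta_phiFun hP V Z e hm x₀ x₂ (h₀₁.trans h₁₂) v (x₀ ≫ q) rfl (h₀₁.trans h₁₂).symm).trans
        (theta_phiFun hP V Z e hm x₀ x₁ h₀₁ v (x₀ ≫ q) rfl h₀₁.symm).symm))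

end

end Groth.Agent.Pi1.H390.T1DD
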