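import Groth.Agent.Pi1.H390.T1Space

/-!
# Base change of Kummer covers; étaleness where the function and the exponent are invertible
-/

set_option autoImplicit false

universe u

open CategoryTheory CategoryTheory.Limits AlgebraicGeometry

namespace Groth.Agent.Pi1.H390.T1KumBC

open Groth.Agent.Pi1.H390.T1KumRing Groth.Agent.Pi1.H390.T1Line Groth.Agent.Pi1.H390.T1Space

variable {X Y : Scheme.{u}} (f : Γ(X, ⊤)) (N : ℕ) (g : Y ⟶ X)

/-- Functoriality of the Kummer cover. -/
theorem exists_isPullback : ∃ s : kum (g.appTop f) N ⟶ kum f N,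
    IsPullback s (q (g.appTop f) N) (q f N) g ∧ s ≫ toLine (zz f N) = toLine (zz (g.appTop f) N) := by
  have h1 := isPullback f N
  have h2 := isPullback (g.appTop f) N
  rw [← comp_toLine g f] at h2
  refine ⟨h1.lift (toLine (zz (g.appTop f) N)) (q (g.appTop f) N ≫ g) ?_, ?_, h1.lift_fst _ _ _⟩
  · rw [h2.w, Category.assoc]
  · refine IsPullback.of_right ?_ (h1.lift_snd _ _ _) h1
    rw [h1.lift_fst]
    exact h2

theorem appTop_zz : ∃ s : kum (g.appTop f) N ⟶ kum f N,
    IsPullback s (q (g.appTop f) N) (q f N) g ∧ s.appTop (zz f N) = zz (g.appTop f) N := by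
  obtain ⟨s, h1, h2⟩ := exists_isPullback f N g
  refine ⟨s, h1, ?_⟩
  rw [comp_toLine] at h2
  rw [← fn_toLine (s.appTop (zz f N)), h2, fn_toLine]

/-- The Kummer cover is étale over the locus where `f` is invertible. -/
theorem etale_restrict {N : ℕ} (hN : N ≠ 0) (hNX : IsUnit ((N : ℕ) : Γ(X, ⊤))) (U : X.Opens)
    (hU : U ≤ X.basicOpen f) : Etale (q f N ∣_ U) := by
  obtain ⟨s, hs, -⟩ := exists_isPullback f N U.ι
  have h1 : IsUnit (U.ι.appTop f) := by
    refine RingedSpace.isUnit_of_isUnit_germ _ ⊤ _ fun x hx => ?_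
    have h2 : x ∈ U.ι ⁻¹ᵁ X.basicOpen f := hU x.2
    rw [Scheme.preimage_basicOpen_top] at h2
    exact (Scheme.mem_basicOpen_top _ _ _).mp h2
  have h2 : Etale (q (U.ι.appTop f) N) := by
    refine etale_q _ hN h1 ?_
    have h3 := hNX.map U.ι.appTop.hom
    rwa [map_natCast] at h3
  have h3 := (isPullback_morphismRestrict (q f N) U).flip
  have h4 : q f N ∣_ U = (h3.isoIsPullback _ _ hs).hom ≫ q (U.ι.appTop f) N :=
    (IsPullback.isoIsPullback_hom_snd _ _ h3 hs).symm
  rw [h4]
  infer_instance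

end Groth.Agent.Pi1.H390.T1KumBC
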