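import Mathlib.AlgebraicGeometry.AffineSpace
import Mathlib.RingTheory.AdjoinRoot
import Mathlib.RingTheory.Etale.StandardEtale
import Mathlib.RingTheory.RingHom.Etale
import Mathlib.RingTheory.RingHom.Flat
import Mathlib.RingTheory.RingHom.Finite
import Mathlib.RingTheory.RingHom.FinitePresentation
import Mathlib.RingTheory.Flat.FaithfullyFlat.Algebra
import Mathlib.Algebra.Category.Ring.Constructions

/-!
# The algebra `B[Y] / (Y ^ N - b)` as a base change of `ℤ[t] → ℤ[t]`, `t ↦ t ^ N`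
-/

set_option autoImplicit false

universe u

open CategoryTheory CategoryTheory.Limits AlgebraicGeometry Polynomial

namespace Groth.Agent.Pi1.H390.T1KumRing

/-- `ℤ[t]`. -/
abbrev Q : Type u := MvPolynomial PUnit.{u+1} (ULift.{u} ℤ)

/-- The coordinate. -/
noncomputable abbrev tt : Q.{u} := MvPolynomial.X PUnit.unit

/-- `t ↦ t ^ N`. -/
noncomputable def kapHom (N : ℕ) : Q.{u} →+* Q.{u} :=
  (MvPolynomial.aeval (R := ULift.{u} ℤ) (fun _ : PUnit.{u+1} => tt ^ N)).toRingHom

@[simp]
theorem kapHom_tt (N : ℕ) : kapHom N tt = tt ^ N := MvPolynomial.aeval_X _ _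

theorem Q_ext {R : Type u} [CommRing R] {f g : Q.{u} →+* R} (h : f tt = g tt) : f = g := by
  have h1 : CommRingCat.ofHom f = CommRingCat.ofHom g :=
    AffineSpace.of_mvPolynomial_int_ext fun i => h
  exact congrArg CommRingCat.Hom.hom h1

variable {B : Type u} [CommRing B] (ψ : Q.{u} →+* B) (N : ℕ)

/-- The polynomial `Y ^ N - ψ(t)`. -/
noncomputable abbrev pol (b : B) : B[X] := X ^ N - C b

theorem eval_pol {S : Type u} [CommRing S] (i : B →+* S) (b : B) (x : S) (h : x ^ N = i b) :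
    (pol N b).eval₂ i x = 0 := by
  rw [eval₂_sub, eval₂_X_pow, eval₂_C, h, sub_self]

theorem root_pow (b : B) : AdjoinRoot.root (pol N b) ^ N = AdjoinRoot.of (pol N b) b := by
  have h := AdjoinRoot.eval₂_root (pol N b)
  rw [eval₂_sub, eval₂_X_pow, eval₂_C, sub_eq_zero] at h
  exact h

/-- `t ↦ root`. -/
noncomputable def rootHom (b : B) : Q.{u} →+* AdjoinRoot (pol N b) :=
  MvPolynomial.eval₂Hom ((Int.castRingHom (AdjoinRoot (pol N b))).comp
    (ULift.ringEquiv : ULift.{u} ℤ ≃+* ℤ).toRingHom) (fun _ => AdjoinRoot.root (pol N b))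

@[simp]
theorem rootHom_tt (b : B) : rootHom N b tt = AdjoinRoot.root (pol N b) :=
  MvPolynomial.eval₂Hom_X' _ _ _

theorem rootHom_comp : (rootHom N (ψ tt)).comp (kapHom N) =
    (AdjoinRoot.of (pol N (ψ tt))).comp ψ := by
  refine Q_ext ?_
  rw [RingHom.comp_apply, RingHom.comp_apply, kapHom_tt, map_pow, rootHom_tt, root_pow]

/-- The Kummer algebra is a base change of `kapHom`. -/
theorem isPushout : IsPushout (CommRingCat.ofHom (kapHom N)) (CommRingCat.ofHom ψ)
    (CommRingCat.ofHom (rootHom N (ψ tt)))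
    (CommRingCat.ofHom (AdjoinRoot.of (pol N (ψ tt)))) := by
  have hw : ∀ s : PushoutCocone (CommRingCat.ofHom (kapHom N)) (CommRingCat.ofHom ψ),
      s.inl.hom tt ^ N = s.inr.hom (ψ tt) := fun s => by
    rw [← map_pow, ← kapHom_tt]
    exact RingHom.congr_fun (congrArg CommRingCat.Hom.hom s.condition) tt
  refine ⟨⟨CommRingCat.hom_ext (rootHom_comp ψ N)⟩, ⟨PushoutCocone.IsColimit.mk _
    (fun s => CommRingCat.ofHom (AdjoinRoot.lift s.inr.hom (s.inl.hom tt)
      (eval_pol N s.inr.hom (ψ tt) _ (hw s))))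
    (fun s => ?_) (fun s => ?_) (fun s m hm1 hm2 => ?_)⟩⟩
  · refine CommRingCat.hom_ext (Q_ext ?_)
    have h := AdjoinRoot.lift_root (eval_pol N s.inr.hom (ψ tt) _ (hw s))
    rw [← rootHom_tt] at h
    exact h
  · exact CommRingCat.hom_ext (AdjoinRoot.lift_comp_of (eval_pol N s.inr.hom (ψ tt) _ (hw s)))
  · refine CommRingCat.hom_ext (AdjoinRoot.ringHom_ext ?_ ?_)
    · refine (congrArg CommRingCat.Hom.hom hm2).trans ?_
      exact (AdjoinRoot.lift_comp_of (eval_pol N s.inr.hom (ψ tt) _ (hw s))).symm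
    · have h1 := RingHom.congr_fun (congrArg CommRingCat.Hom.hom hm1) tt
      change m.hom (rootHom N (ψ tt) tt) = s.inl.hom tt at h1
      rw [rootHom_tt] at h1
      refine h1.trans ?_
      exact (AdjoinRoot.lift_root (eval_pol N s.inr.hom (ψ tt) _ (hw s))).symm

variable {N}

theorem monic_pol (hN : N ≠ 0) (b : B) : (pol N b).Monic := monic_X_pow_sub_C b hN

theorem finite_of (hN : N ≠ 0) (b : B) : (AdjoinRoot.of (pol N b)).Finite := by
  rw [← AdjoinRoot.algebraMap_eq]
  exact RingHom.finite_algebraMap.mpr (monic_pol hN b).finite_adjoinRoot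

theorem flat_of (hN : N ≠ 0) (b : B) : (AdjoinRoot.of (pol N b)).Flat := by
  have := (monic_pol hN b).free_adjoinRoot
  rw [← AdjoinRoot.algebraMap_eq]
  exact RingHom.flat_algebraMap_iff.mpr inferInstance

theorem finitePresentation_of (b : B) : (AdjoinRoot.of (pol N b)).FinitePresentation := by
  rw [← AdjoinRoot.algebraMap_eq]
  exact RingHom.finitePresentation_algebraMap.mpr inferInstance

theorem comap_of_surjective (hN : N ≠ 0) (b : B) :
    Function.Surjective (PrimeSpectrum.comap (AdjoinRoot.of (pol N b))) := by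
  rw [← AdjoinRoot.algebraMap_eq]
  rcases subsingleton_or_nontrivial B with hB | hB
  · intro x
    exact (x.2.ne_top (Subsingleton.elim _ _)).elim
  · have := (monic_pol hN b).free_adjoinRoot
    have h1 : Nontrivial (AdjoinRoot (pol N b)) := by
      have h2 : 0 < (AdjoinRoot.powerBasis' (monic_pol hN b)).dim := by
        rw [AdjoinRoot.powerBasis'_dim, natDegree_X_pow_sub_C]
        exact Nat.pos_of_ne_zero hN
      exact ⟨⟨_, _, (AdjoinRoot.powerBasis' (monic_pol hN b)).basis.ne_zero ⟨0, h2⟩⟩⟩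
    have h2 : Module.FaithfullyFlat B (AdjoinRoot (pol N b)) := inferInstance
    exact PrimeSpectrum.comap_surjective_of_faithfullyFlat (A := B) (B := AdjoinRoot (pol N b))

theorem etale_of (hN : N ≠ 0) (b : B) (hb : IsUnit b) (hNB : IsUnit ((N : ℕ) : B)) :
    (AdjoinRoot.of (pol N b)).Etale := by
  have hc : IsCoprime (pol N b) (derivative (pol N b)) := by
    obtain ⟨c, hc⟩ := hb.exists_right_inv
    obtain ⟨d, hd⟩ := hNB.exists_right_inv
    refine ⟨-C c, C (c * d) * X, ?_⟩
    have h1 : derivative (pol N b) = C ((N : ℕ) : B) * X ^ (N - 1) := by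
      rw [derivative_sub, derivative_C, sub_zero, derivative_X_pow]
    have h2 : (X : B[X]) * X ^ (N - 1) = X ^ N := mul_pow_sub_one hN X
    rw [h1]
    calc -C c * (X ^ N - C b) + C (c * d) * X * (C ((N : ℕ) : B) * X ^ (N - 1))
        = -C c * (X ^ N - C b) + C c * (C d * C ((N : ℕ) : B)) * (X * X ^ (N - 1)) := by
          rw [C_mul]; ring
      _ = -C c * (X ^ N - C b) + C c * X ^ N := by
          rw [h2, ← C_mul, mul_comm d, hd, C_1, mul_one]
      _ = C c * C b := by ring
      _ = 1 := by rw [← C_mul, mul_comm, hc, C_1]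
  obtain ⟨a, a', hab⟩ := hc
  let E : StandardEtalePair B := ⟨pol N b, monic_pol hN b, 1,
    ⟨a', a, 0, by rw [pow_zero, ← hab]; ring⟩⟩
  have h1 : IsUnit (AdjoinRoot.mk (pol N b) (1 : B[X])) := by rw [map_one]; exact isUnit_one
  have e : E.Ring ≃ₐ[B] AdjoinRoot (pol N b) :=
    E.equivAwayAdjoinRoot.trans
      ((IsLocalization.atUnit (AdjoinRoot (pol N b))
        (Localization.Away (AdjoinRoot.mk (pol N b) (1 : B[X])))
        (AdjoinRoot.mk (pol N b) (1 : B[X])) h1).symm.restrictScalars B)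
  rw [← AdjoinRoot.algebraMap_eq]
  exact RingHom.etale_algebraMap.mpr (Algebra.Etale.of_equiv e)

end Groth.Agent.Pi1.H390.T1KumRing
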