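import Groth.Agent.Pi1.H390.T1KumRing
import Mathlib.AlgebraicGeometry.Morphisms.Finite
import Mathlib.AlgebraicGeometry.Morphisms.Flat
import Mathlib.AlgebraicGeometry.Morphisms.Etale

/-!
# The `N`-th power map of the line and Kummer covers of schemes

`line = Spec ℤ[t]`, `kap N : line ⟶ line` the `N`-th power map, `toLine f : X ⟶ line` for a global
function `f`, `kum f N = X ×_{line} line` the Kummer cover `z ^ N = f` of `X`, with
`q f N : kum f N ⟶ X` finite, flat, surjective, and `zz f N` the root of `f`.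
-/

set_option autoImplicit false

universe u

open CategoryTheory CategoryTheory.Limits AlgebraicGeometry

namespace Groth.Agent.Pi1.H390.T1Line

open Groth.Agent.Pi1.H390.T1KumRing

/-- The affine line over `ℤ`. -/
noncomputable abbrev line : Scheme.{u} := Spec (CommRingCat.of Q.{u})

/-- The `N`-th power map. -/
noncomputable def kap (N : ℕ) : line.{u} ⟶ line.{u} := Spec.map (CommRingCat.ofHom (kapHom N))

section

variable {X Y : Scheme.{u}}

/-- A global function as a map to the line. -/
noncomputable def toLine (f : Γ(X, ⊤)) : X ⟶ line.{u} :=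
  (AffineSpace.toSpecMvPolyIntEquiv PUnit.{u+1}).symm (fun _ => f)

/-- The function of a map to the line. -/
noncomputable def fn (g : X ⟶ line.{u}) : Γ(X, ⊤) :=
  AffineSpace.toSpecMvPolyIntEquiv PUnit.{u+1} g PUnit.unit

theorem fn_def (g : X ⟶ line.{u}) :
    fn g = g.appTop ((Scheme.ΓSpecIso (CommRingCat.of Q.{u})).inv tt) := rfl

@[simp]
theorem fn_toLine (f : Γ(X, ⊤)) : fn (toLine f) = f := by
  rw [fn, toLine, Equiv.apply_symm_apply]

@[simp]
theorem toLine_fn (g : X ⟶ line.{u}) : toLine (fn g) = g := by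
  rw [toLine, Equiv.symm_apply_eq]
  rfl

theorem line_ext {g g' : X ⟶ line.{u}} (h : fn g = fn g') : g = g' := by
  rw [← toLine_fn g, h, toLine_fn]

theorem fn_comp (h : X ⟶ Y) (g : Y ⟶ line.{u}) : fn (h ≫ g) = h.appTop (fn g) := rfl

theorem comp_toLine (h : X ⟶ Y) (f : Γ(Y, ⊤)) : h ≫ toLine f = toLine (h.appTop f) :=
  line_ext (by rw [fn_comp, fn_toLine, fn_toLine])

/-- The ring map of a map to the line. -/
noncomputable def rh (g : X ⟶ line.{u}) : Q.{u} →+* Γ(X, ⊤) :=
  ((Scheme.ΓSpecIso (CommRingCat.of Q.{u})).inv ≫ g.appTop).hom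

theorem rh_tt (g : X ⟶ line.{u}) : rh g tt = fn g := rfl

theorem eq_rh (g : X ⟶ line.{u}) : g = X.toSpecΓ ≫ Spec.map (CommRingCat.ofHom (rh g)) := by
  have h1 : CommRingCat.ofHom (rh g) =
    (Scheme.ΓSpecIso (CommRingCat.of Q.{u})).inv ≫ g.appTop := CommRingCat.ofHom_hom _
  rw [h1, Spec.map_comp, ← Category.assoc, ← Scheme.toSpecΓ_naturality, Category.assoc,
    toSpecΓ_SpecMap_ΓSpecIso_inv, Category.comp_id]

theorem fn_comp_kap (N : ℕ) (g : X ⟶ line.{u}) : fn (g ≫ kap N) = fn g ^ N := by
  have h1 : fn (kap.{u} N) = (Scheme.ΓSpecIso (CommRingCat.of Q.{u})).inv (tt ^ N) := by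
    rw [← kapHom_tt]
    have h := Scheme.ΓSpecIso_inv_naturality (CommRingCat.ofHom (kapHom.{u} N))
    exact (congrArg (fun a => a.hom tt) h).symm
  rw [fn_comp, h1, map_pow, map_pow]
  rfl

theorem toLine_comp_kap (N : ℕ) (f : Γ(X, ⊤)) : toLine f ≫ kap N = toLine (f ^ N) :=
  line_ext (by rw [fn_comp_kap, fn_toLine, fn_toLine])

end

section Kum

variable {X : Scheme.{u}} (f : Γ(X, ⊤)) (N : ℕ)

/-- The Kummer cover `z ^ N = f`. -/
noncomputable def kum : Scheme.{u} := pullback (toLine f) (kap N)

/-- The projection of the Kummer cover. -/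
noncomputable def q : kum f N ⟶ X := pullback.fst (toLine f) (kap N)

/-- The root of `f` on the Kummer cover. -/
noncomputable def zz : Γ(kum f N, ⊤) := fn (pullback.snd (toLine f) (kap N))

theorem toLine_zz : toLine (zz f N) = pullback.snd (toLine f) (kap N) := toLine_fn _

theorem isPullback : IsPullback (toLine (zz f N)) (q f N) (kap N) (toLine f) := by
  rw [toLine_zz]
  exact (IsPullback.of_hasPullback (toLine f) (kap N)).flip

theorem zz_pow : zz f N ^ N = (q f N).appTop f := by
  have h := (isPullback f N).w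
  rw [toLine_comp_kap, comp_toLine] at h
  rw [← fn_toLine (zz f N ^ N), h, fn_toLine]

/-- The Kummer cover is a base change of a monogenic algebra over the global sections. -/
theorem exists_isPullback : ∃ (s : kum f N ⟶ Spec (CommRingCat.of (AdjoinRoot (pol N f)))),
    IsPullback s (q f N) (Spec.map (CommRingCat.ofHom (AdjoinRoot.of (pol N f)))) X.toSpecΓ := by
  have hf : rh (toLine f) tt = f := by rw [rh_tt, fn_toLine]
  have h1 : IsPullback (Spec.map (CommRingCat.ofHom (rootHom N (rh (toLine f) tt))))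
      (Spec.map (CommRingCat.ofHom (AdjoinRoot.of (pol N (rh (toLine f) tt))))) (kap N)
      (Spec.map (CommRingCat.ofHom (rh (toLine f)))) :=
    isPullback_SpecMap_of_isPushout _ _ _ _ (isPushout (rh (toLine f)) N)
  rw [hf] at h1
  have h2 := isPullback f N
  rw [eq_rh (toLine f)] at h2
  refine ⟨h1.lift (toLine (zz f N)) (q f N ≫ X.toSpecΓ) ?_, ?_⟩
  · rw [h2.w, Category.assoc]
  · refine IsPullback.of_right ?_ (h1.lift_snd _ _ _) h1
    rw [h1.lift_fst]
    exact h2

variable {N} (hN : N ≠ 0)
include hN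

theorem isFinite_q : IsFinite (q f N) := by
  obtain ⟨s, hs⟩ := exists_isPullback f N
  exact MorphismProperty.of_isPullback hs ((IsFinite.SpecMap_iff _).mpr (finite_of hN f))

theorem flat_q : Flat (q f N) := by
  obtain ⟨s, hs⟩ := exists_isPullback f N
  exact MorphismProperty.of_isPullback hs (Flat.SpecMap_iff.mpr (flat_of hN f))

theorem surjective_q : Surjective (q f N) := by
  obtain ⟨s, hs⟩ := exists_isPullback f N
  exact MorphismProperty.of_isPullback hs ⟨comap_of_surjective hN f⟩

omit hN in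
theorem locallyOfFinitePresentation_q : LocallyOfFinitePresentation (q f N) := by
  obtain ⟨s, hs⟩ := exists_isPullback f N
  exact MorphismProperty.of_isPullback hs
    (HasRingHomProperty.Spec_iff.mpr (finitePresentation_of f))

/-- The Kummer cover is étale as soon as `f` and `N` are invertible. -/
theorem etale_q (hf : IsUnit f) (hNX : IsUnit ((N : ℕ) : Γ(X, ⊤))) : Etale (q f N) := by
  obtain ⟨s, hs⟩ := exists_isPullback f N
  exact MorphismProperty.of_isPullback hs
    (HasRingHomProperty.Spec_iff.mpr (etale_of hN f hf hNX))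

end Kum

end Groth.Agent.Pi1.H390.T1Line
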