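import Groth.Agent.Pi1A.FEtGlue
import Groth.Agent.Pi1A.FEtAffine

/-!
# Universally fully faithful morphisms for finite étale covers, and sections

`UFF m`: for every base change `m_T : T ×_S S₁ ⟶ T` of `m : S₁ ⟶ S` the functor `FEt.restrict m_T` is
fully faithful. Then for `V` finite étale over `S'`, `x : T ⟶ S'` and any `s : T ⟶ S` the points of `V`
over `x` are the points of `V` over `T ×_S S₁ ⟶ T ⟶ S'`.
-/

set_option autoImplicit false

universe u

open CategoryTheory CategoryTheory.Limits AlgebraicGeometry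

namespace Groth.Agent.Pi1.H390.T1Sec

open Groth.Agent.Pi1A.FEtAffine

/-- All base changes of `m` are fully faithful on finite étale covers. -/
def UFF {S₁ S : Scheme.{u}} (m : S₁ ⟶ S) : Prop :=
  ∀ ⦃T : Scheme.{u}⦄ (s : T ⟶ S), (FEt.restrict (pullback.fst s m)).Full ∧
    (FEt.restrict (pullback.fst s m)).Faithful

/-- The trivial cover. -/
noncomputable def triv (T : Scheme.{u}) : FEt.Cat T :=
  MorphismProperty.Over.mk ⊤ (𝟙 T) (⟨inferInstance, inferInstance⟩ : FEt.prop (𝟙 T))

variable {T T₁ S' : Scheme.{u}} (p : T₁ ⟶ T)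

theorem fst_comp_triv {Y : Scheme.{u}} (v : T ⟶ Y) :
    (pullback.fst (triv T).hom p ≫ v : pullback (triv T).hom p ⟶ Y) =
      pullback.snd (triv T).hom p ≫ p ≫ v := by
  have h2 := pullback.condition (f := (triv T).hom) (g := p)
  have h3 : (pullback.fst (triv T).hom p : pullback (triv T).hom p ⟶ T) =
      pullback.snd (triv T).hom p ≫ p := (Category.comp_id _).symm.trans h2
  exact (congrArg (· ≫ v) h3).trans (Category.assoc _ _ _)

theorem section_unique (h : (FEt.restrict p).Faithful) (V : FEt.Cat S') (x : T ⟶ S')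
    (v v' : T ⟶ V.left) (hv : v ≫ V.hom = x) (hv' : v' ≫ V.hom = x) (hp : p ≫ v = p ≫ v') :
    v = v' := by
  refine Groth.Agent.Pi1A.FEtGlue.hom_unique p (triv T) x V v v' ?_ ?_ ?_
  · exact hv.trans (Category.id_comp x).symm
  · exact hv'.trans (Category.id_comp x).symm
  · exact (fst_comp_triv p v).trans ((congrArg (_ ≫ ·) hp).trans (fst_comp_triv p v').symm)

theorem section_exists (h : (FEt.restrict p).Full) (V : FEt.Cat S') (x : T ⟶ S')
    (w : T₁ ⟶ V.left) (hw : w ≫ V.hom = p ≫ x) :
    ∃ v : T ⟶ V.left, v ≫ V.hom = x ∧ p ≫ v = w := by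
  obtain ⟨a, ha, ha'⟩ := Groth.Agent.Pi1A.FEtGlue.hom_exists p (triv T) x V
    (pullback.snd (triv T).hom p ≫ w) (by
      rw [Category.assoc, hw]
      exact (fst_comp_triv p x).symm.trans (congrArg (_ ≫ ·) (Category.id_comp x).symm))
  refine ⟨a, ha.trans (Category.id_comp x), ?_⟩
  have h3 : (pullback.lift p (𝟙 T₁) (by
      rw [Category.id_comp]; exact Category.comp_id p) : T₁ ⟶ pullback (triv T).hom p) ≫
      pullback.fst (triv T).hom p ≫ a = w := by
    rw [ha', pullback.lift_snd_assoc, Category.id_comp]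
  rw [pullback.lift_fst_assoc] at h3
  exact h3

end Groth.Agent.Pi1.H390.T1Sec
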