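import Groth.Agent.Pi1.H390.T1Line

/-!
# The Kummer cover of an étale coordinate is étale over the affine line
-/

set_option autoImplicit false

universe u

open CategoryTheory CategoryTheory.Limits AlgebraicGeometry

namespace Groth.Agent.Pi1.H390.T1Space

open Groth.Agent.Pi1.H390.T1KumRing Groth.Agent.Pi1.H390.T1Line

variable {T X : Scheme.{u}} (w : X ⟶ T) (f : Γ(X, ⊤)) (N : ℕ)

/-- The projection of the affine line over `T` to the line over `ℤ`. -/
noncomputable abbrev prL (T : Scheme.{u}) : 𝔸(PUnit.{u+1}; T) ⟶ line.{u} :=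
  AffineSpace.toSpecMvPoly PUnit.{u+1} T

theorem fn_prL : fn (prL T) = AffineSpace.coord T PUnit.unit := rfl

theorem homOfVector_prL : AffineSpace.homOfVector w (fun _ : PUnit.{u+1} => f) ≫ prL T = toLine f :=
  AffineSpace.homOfVector_toSpecMvPoly _ _

/-- The `N`-th power map of the affine line over `T`. -/
noncomputable def kapT (T : Scheme.{u}) (N : ℕ) : 𝔸(PUnit.{u+1}; T) ⟶ 𝔸(PUnit.{u+1}; T) :=
  AffineSpace.homOfVector (𝔸(PUnit.{u+1}; T) ↘ T)
    (fun _ => AffineSpace.coord T PUnit.unit ^ N)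

theorem kapT_over : kapT T N ≫ 𝔸(PUnit.{u+1}; T) ↘ T = 𝔸(PUnit.{u+1}; T) ↘ T :=
  AffineSpace.homOfVector_over _ _

theorem kapT_toLine : kapT T N ≫ prL T = prL T ≫ kap N := by
  refine line_ext ?_
  rw [fn_comp_kap, fn_prL, kapT, homOfVector_prL, fn_toLine]

theorem isPullback_prL : IsPullback (prL T) (𝔸(PUnit.{u+1}; T) ↘ T) (terminal.from line.{u})
    (terminal.from T) :=
  (IsPullback.of_hasPullback (terminal.from T) (terminal.from line.{u})).flip

theorem isPullback_kapT : IsPullback (prL T) (kapT T N) (kap N) (prL T) := by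
  refine IsPullback.of_bot (v₂₁ := 𝔸(PUnit.{u+1}; T) ↘ T)
    (v₂₂ := terminal.from line.{u}) (h₃₁ := terminal.from T)
    ?_ (kapT_toLine N).symm isPullback_prL
  rw [kapT_over]
  have h2 : kap N ≫ terminal.from line.{u} = terminal.from line.{u} :=
    terminal.comp_from _
  rw [h2]
  exact isPullback_prL

theorem homOfVector_kapT (v : Γ(X, ⊤)) :
    AffineSpace.homOfVector w (fun _ : PUnit.{u+1} => v) ≫ kapT T N =
      AffineSpace.homOfVector w (fun _ : PUnit.{u+1} => v ^ N) := by
  refine isPullback_prL.hom_ext ?_ ?_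
  · rw [Category.assoc, kapT_toLine, ← Category.assoc, homOfVector_prL, homOfVector_prL,
      toLine_comp_kap]
  · rw [Category.assoc, kapT_over, AffineSpace.homOfVector_over, AffineSpace.homOfVector_over]

theorem comp_homOfVector {Y : Scheme.{u}} (g : Y ⟶ X) :
    g ≫ AffineSpace.homOfVector w (fun _ : PUnit.{u+1} => f) =
      AffineSpace.homOfVector (g ≫ w) (fun _ : PUnit.{u+1} => g.appTop f) :=
  AffineSpace.comp_homOfVector _ _ _

theorem isPullback_homOfVector :
    IsPullback (AffineSpace.homOfVector (q f N ≫ w) (fun _ : PUnit.{u+1} => zz f N)) (q f N)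
      (kapT T N) (AffineSpace.homOfVector w (fun _ : PUnit.{u+1} => f)) := by
  refine IsPullback.of_right (h₁₂ := prL T) (h₂₂ := prL T) (v₁₃ := kap N) ?_ ?_
    (isPullback_kapT N)
  · rw [homOfVector_prL, homOfVector_prL]
    exact isPullback f N
  · rw [homOfVector_kapT, comp_homOfVector, zz_pow]

theorem etale_homOfVector [h : Etale (AffineSpace.homOfVector w (fun _ : PUnit.{u+1} => f))] :
    Etale (AffineSpace.homOfVector (q f N ≫ w) (fun _ : PUnit.{u+1} => zz f N)) :=
  MorphismProperty.of_isPullback (isPullback_homOfVector w f N).flip h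

end Groth.Agent.Pi1.H390.T1Space
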