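import Groth.Agent.Pi1A.AlgClosedBC
import Groth.Agent.Pi1.H390.T1Sec

/-!
# Extensions of algebraically closed fields are universally fully faithful
-/

set_option autoImplicit false

universe u

open CategoryTheory CategoryTheory.Limits AlgebraicGeometry

namespace Groth.Agent.Pi1.H390.T1UFF

open Groth.Agent.Pi1A.FEtAffine Groth.Agent.Pi1.H390.T1Sec

variable {k K : Type u} [Field k] [Field K] [IsAlgClosed k] [IsAlgClosed K] (i : k →+* K)

theorem fullyFaithful {T T₁ : Scheme.{u}} {m : T₁ ⟶ T} {a : T₁ ⟶ Spec (CommRingCat.of K)}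
    {s : T ⟶ Spec (CommRingCat.of k)} (h : IsPullback m a s (Spec.map (CommRingCat.ofHom i))) :
    (FEt.restrict m).Full ∧ (FEt.restrict m).Faithful := by
  let _ : Algebra k K := i.toAlgebra
  obtain ⟨h1, h2⟩ := Groth.Agent.Pi1A.AlgClosedBC.fullyFaithful k K s
  let e := h.isoPullback
  have he : e.hom ≫ pullback.fst s (Spec.map (CommRingCat.ofHom i)) = m ≫ (Iso.refl T).hom := by
    rw [Iso.refl_hom, Category.comp_id]
    exact h.isoPullback_hom_fst
  exact ⟨restrict_full_of_arrowIso (f' := pullback.fst s (Spec.map (CommRingCat.ofHom i))) e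
      (Iso.refl T) he,
    restrict_faithful_of_arrowIso (f' := pullback.fst s (Spec.map (CommRingCat.ofHom i))) e
      (Iso.refl T) he⟩

theorem uff {T T₁ : Scheme.{u}} {m : T₁ ⟶ T} {a : T₁ ⟶ Spec (CommRingCat.of K)}
    {s : T ⟶ Spec (CommRingCat.of k)} (h : IsPullback m a s (Spec.map (CommRingCat.ofHom i))) :
    UFF m := by
  intro T' t
  exact fullyFaithful i ((IsPullback.of_hasPullback t m).flip.paste_horiz h.flip).flip

theorem isEquivalence {T T₁ : Scheme.{u}} {m : T₁ ⟶ T} {a : T₁ ⟶ Spec (CommRingCat.of K)}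
    {s : T ⟶ Spec (CommRingCat.of k)} [IsProper s]
    (h : IsPullback m a s (Spec.map (CommRingCat.ofHom i))) :
    (FEt.restrict m).IsEquivalence := by
  let _ : Algebra k K := i.toAlgebra
  have h1 := Groth.Agent.Pi1A.AlgClosedBC.isEquivalence k K s
  let e := h.isoPullback
  have he : e.hom ≫ pullback.fst s (Spec.map (CommRingCat.ofHom i)) = m ≫ (Iso.refl T).hom := by
    rw [Iso.refl_hom, Category.comp_id]
    exact h.isoPullback_hom_fst
  exact restrict_isEquivalence_of_arrowIso (f' := pullback.fst s (Spec.map (CommRingCat.ofHom i))) e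
      (Iso.refl T) he

end Groth.Agent.Pi1.H390.T1UFF
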